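import Cfsg.Agent.H265.JM.EQCent

/-!
# S5580, Part III, engine (Q) (helper265)

`Q` : an involution `v` of class 2B of `V` and an element `y` of order 3 with `(v y)³ = 1`, `y v y⁻¹ ∉ V` : the pair
`(y, v)` is conjugate to one of `(y0, v4)`, `(y0, v6)`, `(y0, v9)`.
-/

set_option autoImplicit false
set_option maxRecDepth 20000

open Cfsg

namespace Cfsg.Agent.H265.JM.EQ

open Cfsg.Agent.Lib Cfsg.Agent.Lib.F2MatGroup
open Cfsg.Agent.J4.Rep112 Cfsg.Agent.J4.LowerData Cfsg.Agent.J4.Beta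
open Cfsg.Agent.J4.Classes Cfsg.Agent.J4.ClassesData Cfsg.Agent.J4.ClassesAbs
open Cfsg.Agent.H858.VK Cfsg.Agent.H878.JM.Base Cfsg.Agent.H858.Data Cfsg.Agent.H858
open Cfsg.Agent.J4.Pres Cfsg.Agent.J4.M24Hom Cfsg.Agent.J4.Lower
open Cfsg.Agent.J4.M24InvolData Cfsg.Agent.SporadicStructure.M24El
open Cfsg.Agent.J4.Invol (EJ s d)
open Cfsg.Agent.H860.JM

local notation "𝒢" => Cfsg.Spor.J4

/-! ### the abstract configuration -/

section abs

variable {G : Type*} [Group G]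

theorem rot_of {v y : G} (hv : v * v = 1) (hy : y * y * y = 1) (h : v * y * (v * y) * (v * y) = 1) :
    Rot v (y * v * y⁻¹) y ∧ v * (y * v * y⁻¹) = y * v * y⁻¹ * v := by
  have hy3 : y * y = y⁻¹ := eq_inv_of_mul_eq_one_left hy
  have e1 : v * (y * v * y⁻¹) * (y * (y * v * y⁻¹) * y⁻¹) = 1 := by
    calc v * (y * v * y⁻¹) * (y * (y * v * y⁻¹) * y⁻¹) = (v * y * (v * y) * (v * y)) * (y * y * y)⁻¹ := by group
      _ = 1 := by rw [h, hy]; group
  have e2 : y * (y * v * y⁻¹) * y⁻¹ * (y * (y * v * y⁻¹) * y⁻¹) = 1 := by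
    calc y * (y * v * y⁻¹) * y⁻¹ * (y * (y * v * y⁻¹) * y⁻¹) = y * (y * (v * v) * y⁻¹) * y⁻¹ := by group
      _ = 1 := by rw [hv]; group
  have e3 : y * (y * v * y⁻¹) * y⁻¹ = v * (y * v * y⁻¹) := by
    rw [← inv_eq_of_mul_eq_one_left e2, ← eq_inv_of_mul_eq_one_left e1]
  have e4 : y * v * y⁻¹ * (y * v * y⁻¹) = 1 := by
    calc y * v * y⁻¹ * (y * v * y⁻¹) = y * (v * v) * y⁻¹ := by group
      _ = 1 := by rw [hv]; group
  refine ⟨⟨rfl, e3⟩, ?_⟩
  have e5 : v * (y * v * y⁻¹) * (v * (y * v * y⁻¹)) = 1 := by rw [← e3]; exact e2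
  have e6 : (v * (y * v * y⁻¹))⁻¹ = y * v * y⁻¹ * v := by
    rw [mul_inv_rev, inv_eq_of_mul_eq_one_left hv, inv_eq_of_mul_eq_one_left e4]
  rw [← e6]
  exact eq_inv_of_mul_eq_one_left e5

theorem Rot.map {a b y : G} (h : Rot a b y) (g : G) : Rot (g * a * g⁻¹) (g * b * g⁻¹) (g * y * g⁻¹) := by
  constructor
  · calc g * y * g⁻¹ * (g * a * g⁻¹) * (g * y * g⁻¹)⁻¹ = g * (y * a * y⁻¹) * g⁻¹ := by group
      _ = _ := by rw [h.one]
  · calc g * y * g⁻¹ * (g * b * g⁻¹) * (g * y * g⁻¹)⁻¹ = g * (y * b * y⁻¹) * g⁻¹ := by group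
      _ = g * a * g⁻¹ * (g * b * g⁻¹) := by rw [h.two]; group

/-- the standard pair : `(y0, v)` conjugated by `g` -/
theorem rot_std {y v g h r a b : G} (hgh : g * h = 1) (hr : r = g * (y * h)) (ha : g * v = a * g)
    (hb : g * (y * v) = b * (g * y)) (hv : v * v = 1) (hy : y * y * y = 1) (hvy : v * y * (v * y) * (v * y) = 1) :
    Rot a b r ∧ r * r * r = 1 ∧ h = g⁻¹ := by
  have hh : h = g⁻¹ := eq_inv_of_mul_eq_one_right hgh
  have hr' : r = g * y * g⁻¹ := by rw [hr, hh, mul_assoc]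
  have ha' : a = g * v * g⁻¹ := by rw [ha, mul_inv_cancel_right]
  have hb' : b = g * (y * v * y⁻¹) * g⁻¹ := by
    have : b = g * (y * v) * (g * y)⁻¹ := by rw [hb, mul_inv_cancel_right]
    rw [this]; group
  refine ⟨?_, ?_, hh⟩
  · rw [ha', hb', hr']
    exact (rot_of hv hy hvy).1.map g
  · rw [hr']
    calc g * y * g⁻¹ * (g * y * g⁻¹) * (g * y * g⁻¹) = g * (y * y * y) * g⁻¹ := by group
      _ = 1 := by rw [hy]; group

end abs

/-! ### the equations -/

theorem y0c : y0 * y0 * y0 = 1 := by rw [mul_assoc]; exact y0_cube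
theorem vy4 : v4 * y0 * (v4 * y0) * (v4 * y0) = 1 := by
  have h := v4_y0
  simp only [mul_assoc] at h ⊢
  exact h
theorem vy6 : v6 * y0 * (v6 * y0) * (v6 * y0) = 1 := by
  have h := v6_y0
  simp only [mul_assoc] at h ⊢
  exact h
theorem vy9 : v9 * y0 * (v9 * y0) * (v9 * y0) = 1 := by
  have h := v9_y0
  simp only [mul_assoc] at h ⊢
  exact h

theorem iy0 : getG LE 38 = y0 := getG_LE 18
theorem iv4 : getG LE 25 = v4 := getG_LE 5
theorem iv6 : getG LE 23 = v6 := getG_LE 3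
theorem iv9 : getG LE 20 = v9 := getG_LE 0

theorem w433 : evG LE [39, 43, 44, 46, 47] = V 433 := evG_be 433
theorem w1083 : evG LE [39, 40, 42, 43, 44, 49] = V 1083 := evG_be 1083
theorem w517 : evG LE [39, 41, 48, 19] = V 517 * S1 := by
  have h : evG LE [39, 41, 48] = V 517 := evG_be 517
  rw [← h, ← S1_eq]
  simp only [evG_cons, evG_nil, mul_one, mul_assoc]
theorem w1584 : evG LE [43, 44, 48, 49, 19] = V 1584 * S1 := by
  have h : evG LE [43, 44, 48, 49] = V 1584 := evG_be 1584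
  rw [← h, ← S1_eq]
  simp only [evG_cons, evG_nil, mul_one, mul_assoc]

theorem evp (a b : List ℕ) : evG LE (a ++ b) = evG LE a * evG LE b := evG_append _ a b
theorem ev1 (i : ℕ) : evG LE [i] = getG LE i := by rw [evG_cons, evG_nil, mul_one]
theorem ev2 (i j : ℕ) : evG LE [i, j] = getG LE i * getG LE j := by rw [evG_cons, ev1]
theorem ev3 (i j k : ℕ) : evG LE [i, j, k] = getG LE i * (getG LE j * getG LE k) := by rw [evG_cons, ev2]
theorem ev4 (i j k l : ℕ) : evG LE [i, j, k, l] = getG LE i * (getG LE j * (getG LE k * getG LE l)) := by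
  rw [evG_cons, ev3]

theorem std4 : Rot (V 1083) (V 1584 * S1) (getG LE 15) ∧ getG LE 15 * getG LE 15 * getG LE 15 = 1 ∧
    getG LE 16 = (getG LE 17)⁻¹ := by
  refine rot_std (y := y0) (v := v4) (g := getG LE 17) (h := getG LE 16) ?_ ?_ ?_ ?_ v4_sq y0c vy4
  · have h := eqE (a := [17, 16]) (b := []) (by decide +kernel)
    rwa [ev2, evG_nil] at h
  · have h := eqE (a := [15]) (b := [17, 38, 16]) (by decide +kernel)
    rwa [ev1, ev3, iy0] at h
  · have h := eqE (a := [17, 25]) (b := [39, 40, 42, 43, 44, 49] ++ [17]) (by decide +kernel)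
    rwa [ev2, evp, w1083, ev1, iv4] at h
  · have h := eqE (a := [17, 38, 25]) (b := [43, 44, 48, 49, 19] ++ [17, 38]) (by decide +kernel)
    rwa [ev3, evp, w1584, ev2, iv4, iy0] at h

theorem std6 : Rot (V 433) (V 517 * S1) (getG LE 11) ∧ getG LE 11 * getG LE 11 * getG LE 11 = 1 ∧
    getG LE 12 = (getG LE 13)⁻¹ := by
  refine rot_std (y := y0) (v := v6) (g := getG LE 13) (h := getG LE 12) ?_ ?_ ?_ ?_ v6_sq y0c vy6
  · have h := eqE (a := [13, 12]) (b := []) (by decide +kernel)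
    rwa [ev2, evG_nil] at h
  · have h := eqE (a := [11]) (b := [13, 38, 12]) (by decide +kernel)
    rwa [ev1, ev3, iy0] at h
  · have h := eqE (a := [13, 23]) (b := [39, 43, 44, 46, 47] ++ [13]) (by decide +kernel)
    rwa [ev2, evp, w433, ev1, iv6] at h
  · have h := eqE (a := [13, 38, 23]) (b := [39, 41, 48, 19] ++ [13, 38]) (by decide +kernel)
    rwa [ev3, evp, w517, ev2, iv6, iy0] at h

theorem std9 : Rot (V 433) (V 517 * S1) (getG LE 7) ∧ getG LE 7 * getG LE 7 * getG LE 7 = 1 ∧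
    getG LE 8 = (getG LE 9)⁻¹ := by
  refine rot_std (y := y0) (v := v9) (g := getG LE 9) (h := getG LE 8) ?_ ?_ ?_ ?_ v9_sq y0c vy9
  · have h := eqE (a := [9, 8]) (b := []) (by decide +kernel)
    rwa [ev2, evG_nil] at h
  · have h := eqE (a := [7]) (b := [9, 38, 8]) (by decide +kernel)
    rwa [ev1, ev3, iy0] at h
  · have h := eqE (a := [9, 20]) (b := [39, 43, 44, 46, 47] ++ [9]) (by decide +kernel)
    rwa [ev2, evp, w433, ev1, iv9] at h
  · have h := eqE (a := [9, 38, 20]) (b := [39, 41, 48, 19] ++ [9, 38]) (by decide +kernel)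
    rwa [ev3, evp, w517, ev2, iv9, iy0] at h

theorem memC {i : ℕ} (h1 : ([i] ++ [39, 43, 44, 46, 47], [39, 43, 44, 46, 47] ++ [i]) ∈ esE)
    (h2 : ([i] ++ [39, 41, 48, 19], [39, 41, 48, 19] ++ [i]) ∈ esE) : getG LE i ∈ C2 (V 433) (V 517 * S1) := by
  have e1 := eqE h1
  have e2 := eqE h2
  rw [evp, evp, ev1, w433] at e1
  rw [evp, evp, ev1, w517] at e2
  rw [mem_C2, e1, e2, mul_inv_cancel_right, mul_inv_cancel_right]
  exact ⟨rfl, rfl⟩

theorem W_mem : getG LE 6 ∈ C2 (V 433) (V 517 * S1) := memC (by decide +kernel) (by decide +kernel)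
theorem K1_mem : getG LE 5 ∈ C2 (V 433) (V 517 * S1) := memC (by decide +kernel) (by decide +kernel)
theorem K2_mem : getG LE 4 ∈ C2 (V 433) (V 517 * S1) := memC (by decide +kernel) (by decide +kernel)

theorem W_cube : getG LE 6 * getG LE 6 * getG LE 6 = 1 := by
  have h := eqE (a := [6, 6, 6]) (b := []) (by decide +kernel)
  rw [ev3, evG_nil] at h
  rw [mul_assoc]; exact h

theorem W_r6 : getG LE 6 * getG LE 11 = getG LE 11 * getG LE 6 := by
  have h := eqE (a := [6, 11]) (b := [11, 6]) (by decide +kernel)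
  rwa [ev2, ev2] at h

theorem K1_r6 : getG LE 5 * (getG LE 11 * getG LE 6) = getG LE 7 * getG LE 5 := by
  have h := eqE (a := [5, 11, 6]) (b := [7, 5]) (by decide +kernel)
  rwa [ev3, ev2] at h

theorem K2_r6 : getG LE 4 * (getG LE 11 * (getG LE 6 * getG LE 6)) = getG LE 7 * getG LE 4 := by
  have h := eqE (a := [4, 11, 6, 6]) (b := [7, 4]) (by decide +kernel)
  rwa [ev4, ev2] at h

theorem i6 : getG LE 13 * v6 = V 433 * getG LE 13 := by
  have h := eqE (a := [13, 23]) (b := [39, 43, 44, 46, 47] ++ [13]) (by decide +kernel)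
  rwa [ev2, evp, w433, ev1, iv6] at h
theorem r6 : getG LE 11 = getG LE 13 * y0 * (getG LE 13)⁻¹ := by
  have h := eqE (a := [11]) (b := [13, 38, 12]) (by decide +kernel)
  rw [ev1, ev3, iy0, std6.2.2] at h
  rw [h, mul_assoc]
theorem i9 : getG LE 9 * v9 = V 433 * getG LE 9 := by
  have h := eqE (a := [9, 20]) (b := [39, 43, 44, 46, 47] ++ [9]) (by decide +kernel)
  rwa [ev2, evp, w433, ev1, iv9] at h
theorem r9 : getG LE 7 = getG LE 9 * y0 * (getG LE 9)⁻¹ := by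
  have h := eqE (a := [7]) (b := [9, 38, 8]) (by decide +kernel)
  rw [ev1, ev3, iy0, std9.2.2] at h
  rw [h, mul_assoc]
theorem i4 : getG LE 17 * v4 = V 1083 * getG LE 17 := by
  have h := eqE (a := [17, 25]) (b := [39, 40, 42, 43, 44, 49] ++ [17]) (by decide +kernel)
  rwa [ev2, evp, w1083, ev1, iv4] at h
theorem r4 : getG LE 15 = getG LE 17 * y0 * (getG LE 17)⁻¹ := by
  have h := eqE (a := [15]) (b := [17, 38, 16]) (by decide +kernel)
  rw [ev1, ev3, iy0, std4.2.2] at h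
  rw [h, mul_assoc]

theorem V_ne {l : ℕ} (hl : l < 2048) (h0 : l ≠ 0) : V l ≠ 1 := by
  intro h
  rw [← V_zero] at h
  exact h0 (V_inj hl (by norm_num) h)

/-- transport back to the standard pair -/
theorem back {v y k G v' a : 𝒢} (h1 : k * y * k⁻¹ = G * y0 * G⁻¹) (h2 : k * v * k⁻¹ = a) (h3 : G * v' = a * G) :
    (G⁻¹ * k) * y * (G⁻¹ * k)⁻¹ = y0 ∧ (G⁻¹ * k) * v * (G⁻¹ * k)⁻¹ = v' := by
  constructor
  · calc (G⁻¹ * k) * y * (G⁻¹ * k)⁻¹ = G⁻¹ * (k * y * k⁻¹) * G := by group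
      _ = y0 := by rw [h1]; group
  · calc (G⁻¹ * k) * v * (G⁻¹ * k)⁻¹ = G⁻¹ * ((k * v * k⁻¹) * G) := by group
      _ = v' := by rw [h2, ← h3, inv_mul_cancel_left]

/-- **(Q)** -/
theorem Q {v y : Spor.J4} (hB : IsConj d v) (hv : v ∈ EJ) (hy : y * y * y = 1)
    (hvy : v * y * (v * y) * (v * y) = 1) (hn : y * v * y⁻¹ ∉ EJ) :
    ∃ g, g * y * g⁻¹ = y0 ∧ (g * v * g⁻¹ = v4 ∨ g * v * g⁻¹ = v6 ∨ g * v * g⁻¹ = v9) := by
  have hfin := Cfsg.Agent.H858.VK.finite_J4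
  have hv2 : v * v = 1 := (sq_of_conj d_mem d_ne hB).2
  obtain ⟨hrot, hcomm⟩ := rot_of hv2 hy hvy
  have c2 : IsConj d (y * v * y⁻¹) := isConj_conj hB
  have c3 : IsConj d (v * (y * v * y⁻¹)) := by rw [← hrot.two]; exact isConj_conj c2
  have hN : y * v * y⁻¹ ∈ Subgroup.normalizer (EJ : Set 𝒢) := cent_le hv hB hcomm.symm
  have hb2 : y * v * y⁻¹ * (y * v * y⁻¹) = 1 := (sq_of_conj d_mem d_ne c2).2
  obtain ⟨g, ⟨g1, g2⟩ | ⟨g1, g2⟩⟩ := pair_cases hv hN hn hcomm hB c2 c3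
  · -- class I
    have hr := hrot.map g
    rw [g1, g2] at hr
    have hd : IsConj d (V 433) := by rw [← g1]; exact isConj_conj hB
    have hy' : g * y * g⁻¹ * (g * y * g⁻¹) * (g * y * g⁻¹) = 1 := by
      calc g * y * g⁻¹ * (g * y * g⁻¹) * (g * y * g⁻¹) = g * (y * y * y) * g⁻¹ := by group
        _ = 1 := by rw [hy]; group
    have hb : V 517 * S1 * (V 517 * S1) = 1 := by
      rw [← g2]
      calc g * (y * v * y⁻¹) * g⁻¹ * (g * (y * v * y⁻¹) * g⁻¹) = g * (y * v * y⁻¹ * (y * v * y⁻¹)) * g⁻¹ := by group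
        _ = 1 := by rw [hb2]; group
    have hab : V 433 * (V 517 * S1) = V 517 * S1 * V 433 := by
      rw [← g2, ← g1]
      calc g * v * g⁻¹ * (g * (y * v * y⁻¹) * g⁻¹) = g * (v * (y * v * y⁻¹)) * g⁻¹ := by group
        _ = g * (y * v * y⁻¹ * v) * g⁻¹ := by rw [hcomm]
        _ = _ := by group
    have hcW : Nat.card (Subgroup.zpowers (getG LE 6)) = 3 := by
      have : Fact (Nat.Prime 3) := ⟨Nat.prime_three⟩
      rw [Nat.card_zpowers]
      exact orderOf_eq_prime (by rw [pow_succ, pow_two]; exact W_cube) soundE.2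
    obtain ⟨c, hc, h⟩ := rot_conj (V_ne (by norm_num) (by norm_num)) (V_sq 433) hb hab std6.1 std6.2.1 W_mem W_cube
      W_r6 (by rw [hcW]; exact not_nine hd) hr hy'
    have hcV : c * V 433 * c⁻¹ = V 433 := (mem_C2.1 hc).1
    have m1 : ∀ k : 𝒢, k ∈ C2 (V 433) (V 517 * S1) → (k * c * g) * v * (k * c * g)⁻¹ = V 433 := by
      intro k hk
      calc (k * c * g) * v * (k * c * g)⁻¹ = k * (c * (g * v * g⁻¹) * c⁻¹) * k⁻¹ := by group
        _ = V 433 := by rw [g1, hcV, (mem_C2.1 hk).1]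
    have m2 : ∀ k : 𝒢, (k * c * g) * y * (k * c * g)⁻¹ = k * (c * (g * y * g⁻¹) * c⁻¹) * k⁻¹ := by
      intro k; group
    rcases h with h | h | h
    · have n1 := m2 1
      rw [h, r6, one_mul, inv_one, mul_one] at n1
      obtain ⟨b1, b2⟩ := back n1 (by have := m1 1 (Subgroup.one_mem _); rwa [one_mul] at this) i6
      exact ⟨_, b1, Or.inr (Or.inl b2)⟩
    · have n1 := m2 (getG LE 5)
      rw [h, K1_r6, mul_inv_cancel_right, r9] at n1
      obtain ⟨b1, b2⟩ := back n1 (m1 _ K1_mem) i9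
      exact ⟨_, b1, Or.inr (Or.inr b2)⟩
    · have n1 := m2 (getG LE 4)
      rw [h, K2_r6, mul_inv_cancel_right, r9] at n1
      obtain ⟨b1, b2⟩ := back n1 (m1 _ K2_mem) i9
      exact ⟨_, b1, Or.inr (Or.inr b2)⟩
  · -- class II
    have hr := hrot.map g
    rw [g1, g2] at hr
    have hd : IsConj d (V 1083) := by rw [← g1]; exact isConj_conj hB
    have hy' : g * y * g⁻¹ * (g * y * g⁻¹) * (g * y * g⁻¹) = 1 := by
      calc g * y * g⁻¹ * (g * y * g⁻¹) * (g * y * g⁻¹) = g * (y * y * y) * g⁻¹ := by group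
        _ = 1 := by rw [hy]; group
    have hb : V 1584 * S1 * (V 1584 * S1) = 1 := by
      rw [← g2]
      calc g * (y * v * y⁻¹) * g⁻¹ * (g * (y * v * y⁻¹) * g⁻¹) = g * (y * v * y⁻¹ * (y * v * y⁻¹)) * g⁻¹ := by group
        _ = 1 := by rw [hb2]; group
    have hab : V 1083 * (V 1584 * S1) = V 1584 * S1 * V 1083 := by
      rw [← g2, ← g1]
      calc g * v * g⁻¹ * (g * (y * v * y⁻¹) * g⁻¹) = g * (v * (y * v * y⁻¹)) * g⁻¹ := by group
        _ = g * (y * v * y⁻¹ * v) * g⁻¹ := by rw [hcomm]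
        _ = _ := by group
    have hC : ¬ 3 * Nat.card (Subgroup.zpowers (1 : 𝒢)) ∣ Nat.card (C2 (V 1083) (V 1584 * S1)) := by
      rw [Subgroup.zpowers_one_eq_bot, Subgroup.card_bot, mul_one]
      exact not_three hd
    obtain ⟨c, hc, h⟩ := rot_conj (V_ne (by norm_num) (by norm_num)) (V_sq 1083) hb hab std4.1 std4.2.1
      (Subgroup.one_mem _) (by rw [one_mul, one_mul]) (by rw [one_mul, mul_one]) hC hr hy'
    have h' : c * (g * y * g⁻¹) * c⁻¹ = getG LE 15 := by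
      rcases h with h | h | h
      · exact h
      · rw [h, mul_one]
      · rw [h, one_mul, mul_one]
    have hcV : c * V 1083 * c⁻¹ = V 1083 := (mem_C2.1 hc).1
    have n1 : (c * g) * y * (c * g)⁻¹ = getG LE 17 * y0 * (getG LE 17)⁻¹ := by
      rw [← r4, ← h']; group
    have n2 : (c * g) * v * (c * g)⁻¹ = V 1083 := by
      calc (c * g) * v * (c * g)⁻¹ = c * (g * v * g⁻¹) * c⁻¹ := by group
        _ = V 1083 := by rw [g1, hcV]
    obtain ⟨b1, b2⟩ := back n1 n2 i4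
    exact ⟨_, b1, Or.inl b2⟩

end Cfsg.Agent.H265.JM.EQ
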