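import Cfsg.Agent.H859.SylEleven
import Cfsg.Agent.H858.Abs

/-!
# S5580, Part III, engine (Q): elements of order 3 rotating a pair of commuting involutions (helper265)
-/

set_option autoImplicit false

open Cfsg

namespace Cfsg.Agent.H265.JM.EQ

variable {G : Type*} [Group G]

/-- `g` rotates the pair: `a ↦ b ↦ a b` -/
structure Rot (a b g : G) : Prop where
  one : g * a * g⁻¹ = b
  two : g * b * g⁻¹ = a * b

/-- the centralizer of a pair -/
def C2 (a b : G) : Subgroup G := Subgroup.centralizer ({a, b} : Set G)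

theorem mem_C2 {a b c : G} : c ∈ C2 a b ↔ c * a * c⁻¹ = a ∧ c * b * c⁻¹ = b := by
  unfold C2
  rw [Subgroup.mem_centralizer_iff]
  constructor
  · intro h
    refine ⟨?_, ?_⟩
    · rw [← h a (by simp), mul_inv_cancel_right]
    · rw [← h b (by simp), mul_inv_cancel_right]
  · rintro ⟨h1, h2⟩ x hx
    rcases hx with rfl | hx
    · exact (mul_inv_eq_iff_eq_mul.1 h1).symm
    · rw [Set.mem_singleton_iff.1 hx]
      exact (mul_inv_eq_iff_eq_mul.1 h2).symm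

theorem Rot.mem {a b g h : G} (hg : Rot a b g) (hh : Rot a b h) : g⁻¹ * h ∈ C2 a b := by
  rw [mem_C2]
  constructor
  · calc g⁻¹ * h * a * (g⁻¹ * h)⁻¹ = g⁻¹ * (h * a * h⁻¹) * g := by group
      _ = g⁻¹ * (g * a * g⁻¹) * g := by rw [hh.one, hg.one]
      _ = a := by group
  · calc g⁻¹ * h * b * (g⁻¹ * h)⁻¹ = g⁻¹ * (h * b * h⁻¹) * g := by group
      _ = g⁻¹ * (g * b * g⁻¹) * g := by rw [hh.two, hg.two]
      _ = b := by group

theorem Rot.conj {a b g c : G} (hg : Rot a b g) (hc : c ∈ C2 a b) : Rot a b (c * g * c⁻¹) := by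
  obtain ⟨h1, h2⟩ := mem_C2.1 hc
  obtain ⟨h3, h4⟩ := mem_C2.1 (Subgroup.inv_mem _ hc)
  rw [inv_inv] at h3 h4
  constructor
  · calc c * g * c⁻¹ * a * (c * g * c⁻¹)⁻¹ = c * (g * (c⁻¹ * a * c) * g⁻¹) * c⁻¹ := by group
      _ = b := by rw [h3, hg.one, h2]
  · calc c * g * c⁻¹ * b * (c * g * c⁻¹)⁻¹ = c * (g * (c⁻¹ * b * c) * g⁻¹) * c⁻¹ := by group
      _ = c * (a * b) * c⁻¹ := by rw [h4, hg.two]
      _ = (c * a * c⁻¹) * (c * b * c⁻¹) := by group
      _ = a * b := by rw [h1, h2]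

theorem Rot.norm {a b g : G} (ha : a * a = 1) (hb : b * b = 1) (hab : a * b = b * a) (hg : Rot a b g) :
    g ∈ Subgroup.normalizer (C2 a b : Set G) := by
  have e3 : g * (a * b) * g⁻¹ = a := by
    calc g * (a * b) * g⁻¹ = (g * a * g⁻¹) * (g * b * g⁻¹) := by group
      _ = b * (a * b) := by rw [hg.one, hg.two]
      _ = b * (b * a) := by rw [hab]
      _ = a := by rw [← mul_assoc, hb, one_mul]
  have e1 := hg.one
  have e2 := hg.two
  have f1 : g⁻¹ * b * g = a := by rw [← e1]; group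
  have f2 : g⁻¹ * (a * b) * g = b := by rw [← e2]; group
  have f3 : g⁻¹ * a * g = a * b := by
    calc g⁻¹ * a * g = g⁻¹ * (g * (a * b) * g⁻¹) * g := by rw [e3]
      _ = a * b := by group
  rw [Subgroup.mem_normalizer_iff]
  intro c
  change c ∈ C2 a b ↔ g * c * g⁻¹ ∈ C2 a b
  rw [mem_C2, mem_C2]
  constructor
  · rintro ⟨h1, h2⟩
    constructor
    · calc g * c * g⁻¹ * a * (g * c * g⁻¹)⁻¹ = g * (c * (g⁻¹ * a * g) * c⁻¹) * g⁻¹ := by group
        _ = g * ((c * a * c⁻¹) * (c * b * c⁻¹)) * g⁻¹ := by rw [f3]; group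
        _ = a := by rw [h1, h2, e3]
    · calc g * c * g⁻¹ * b * (g * c * g⁻¹)⁻¹ = g * (c * (g⁻¹ * b * g) * c⁻¹) * g⁻¹ := by group
        _ = b := by rw [f1, h1, e1]
  · rintro ⟨h1, h2⟩
    have k1 : c * a * c⁻¹ = a := by
      calc c * a * c⁻¹ = g⁻¹ * (g * c * g⁻¹ * (g * a * g⁻¹) * (g * c * g⁻¹)⁻¹) * g := by group
        _ = a := by rw [e1, h2, f1]
    refine ⟨k1, ?_⟩
    calc c * b * c⁻¹ = g⁻¹ * (g * c * g⁻¹ * (g * b * g⁻¹) * (g * c * g⁻¹)⁻¹) * g := by group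
        _ = g⁻¹ * ((g * c * g⁻¹ * a * (g * c * g⁻¹)⁻¹) * (g * c * g⁻¹ * b * (g * c * g⁻¹)⁻¹)) * g := by
          rw [e2]; group
        _ = b := by rw [h1, h2, f2]

theorem rot_conj [Finite G] {a b r w y : G} (ha1 : a ≠ 1) (ha : a * a = 1) (hb : b * b = 1) (hab : a * b = b * a)
    (hr : Rot a b r) (hr3 : r * r * r = 1) (hw : w ∈ C2 a b) (hw3 : w * w * w = 1) (hwr : w * r = r * w)
    (hC : ¬ 3 * Nat.card (Subgroup.zpowers w) ∣ Nat.card (C2 a b)) (hy : Rot a b y) (hy3 : y * y * y = 1) :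
    ∃ c ∈ C2 a b, c * y * c⁻¹ = r ∨ c * y * c⁻¹ = r * w ∨ c * y * c⁻¹ = r * (w * w) := by
  have : Fact (Nat.Prime 3) := ⟨Nat.prime_three⟩
  -- `r ∉ C`
  have hrC : r ∉ C2 a b := by
    intro h
    have h1 := (mem_C2.1 h).1
    have h2 := (mem_C2.1 h).2
    rw [hr.one] at h1
    rw [hr.two, h1] at h2
    exact ha1 (h2.symm.trans (ha))
  have hr1 : r ≠ 1 := fun h => hrC (by rw [h]; exact Subgroup.one_mem _)
  have hr3' : r ^ 3 = 1 := by rw [pow_succ, pow_two]; exact hr3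
  have hw3' : w ^ 3 = 1 := by rw [pow_succ, pow_two]; exact hw3
  have hor : orderOf r = 3 := orderOf_eq_prime hr3' hr1
  have hcr : Nat.card (Subgroup.zpowers r) = 3 := by rw [Nat.card_zpowers, hor]
  -- `C ⊓ ⟨r⟩ = 1`
  have hinf : C2 a b ⊓ Subgroup.zpowers r = ⊥ := by
    rw [inf_comm]
    have h1 : Nat.card (Subgroup.zpowers r ⊓ C2 a b : Subgroup G) ∣ 3 := by
      rw [← hcr]; exact Subgroup.card_dvd_of_le inf_le_left
    rcases (Nat.dvd_prime Nat.prime_three).1 h1 with h2 | h2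
    · exact Subgroup.card_eq_one.1 h2
    · exfalso
      have h3 : Subgroup.zpowers r ⊓ C2 a b = Subgroup.zpowers r :=
        Subgroup.eq_of_le_of_card_ge inf_le_left (by rw [h2, hcr])
      apply hrC
      exact (h3.symm ▸ Subgroup.mem_zpowers r : r ∈ Subgroup.zpowers r ⊓ C2 a b).2
  have hnorm : Subgroup.zpowers r ≤ Subgroup.normalizer (C2 a b : Set G) := by
    rw [Subgroup.zpowers_le]; exact hr.norm ha hb hab
  set H : Subgroup G := C2 a b ⊔ Subgroup.zpowers r with hH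
  have hcH : Nat.card H = Nat.card (C2 a b) * 3 := by
    rw [hH, Cfsg.Agent.H858.Abs.card_sup hnorm hinf, hcr]
  -- `T`
  have hwz : Subgroup.zpowers w ≤ C2 a b := by rw [Subgroup.zpowers_le]; exact hw
  have hrn : Subgroup.zpowers r ≤ Subgroup.normalizer (Subgroup.zpowers w : Set G) := by
    rw [Subgroup.zpowers_le, Subgroup.mem_normalizer_iff]
    have hcomm : ∀ x ∈ Subgroup.zpowers w, r * x * r⁻¹ = x := by
      rintro _ ⟨i, rfl⟩
      have h1 : Commute r (w ^ i) := (show Commute r w from hwr.symm).zpow_right i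
      show r * w ^ i * r⁻¹ = w ^ i
      rw [h1.eq, mul_inv_cancel_right]
    intro x
    constructor
    · intro hx
      change r * x * r⁻¹ ∈ Subgroup.zpowers w
      rw [hcomm x hx]; exact hx
    · intro hx
      have hx' : r * x * r⁻¹ ∈ Subgroup.zpowers w := hx
      have h1 := hcomm _ hx'
      have h2 : r * x * r⁻¹ = x := by
        have h3 : r * x * r⁻¹ = r⁻¹ * (r * (r * x * r⁻¹) * r⁻¹) * r := by group
        rw [h1] at h3
        rw [h3]; group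
      rw [h2] at hx'
      exact hx'
  set T : Subgroup G := Subgroup.zpowers w ⊔ Subgroup.zpowers r with hT
  have hTi : Subgroup.zpowers w ⊓ Subgroup.zpowers r = ⊥ :=
    le_bot_iff.1 ((inf_le_inf_right _ hwz).trans hinf.le)
  have hcT : Nat.card T = Nat.card (Subgroup.zpowers w) * 3 := by
    rw [hT, Cfsg.Agent.H858.Abs.card_sup hrn hTi, hcr]
  have hTH : T ≤ H := sup_le_sup_right hwz _
  have hTelt : ∀ t ∈ T, ∃ i j : ℤ, t = w ^ i * r ^ j := by
    intro t ht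
    obtain ⟨_, ⟨i, rfl⟩, _, ⟨j, rfl⟩, h⟩ := Cfsg.Agent.H858.Abs.exists_mul_of_mem_sup hrn ht
    exact ⟨i, j, h⟩
  have hcw : Commute w r := hwr
  have hT3 : ∀ t ∈ T, t ^ 3 = 1 := by
    intro t ht
    obtain ⟨i, j, rfl⟩ := hTelt t ht
    rw [(hcw.zpow_zpow i j).mul_pow, ← zpow_natCast, ← zpow_natCast, ← zpow_mul, ← zpow_mul, mul_comm i, mul_comm j,
      zpow_mul, zpow_mul, zpow_natCast, zpow_natCast, hw3', hr3', one_zpow, one_zpow, one_mul]
  have hyH : y ∈ H := by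
    have h1 : y = r * (r⁻¹ * y) := by group
    rw [h1]
    exact Subgroup.mul_mem _ ((le_sup_right : Subgroup.zpowers r ≤ H) (Subgroup.mem_zpowers r))
      ((le_sup_left : C2 a b ≤ H) (hr.mem hy))
  have hTp : IsPGroup 3 (T.subgroupOf H) := by
    rintro ⟨⟨t, htH⟩, ht⟩
    refine ⟨1, ?_⟩
    apply Subtype.ext
    apply Subtype.ext
    exact hT3 t ht
  have hidx : ¬ 3 ∣ (T.subgroupOf H).index := by
    intro h
    have h1 := (T.subgroupOf H).card_mul_index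
    rw [Nat.card_congr (Subgroup.subgroupOfEquivOfLe hTH).toEquiv, hcT, hcH] at h1
    apply hC
    have h2 : Nat.card (Subgroup.zpowers w) * 3 * 3 ∣ Nat.card (C2 a b) * 3 := by
      rw [← h1]; exact Nat.mul_dvd_mul_left _ h
    have h3 := Nat.dvd_of_mul_dvd_mul_right (by norm_num) h2
    rwa [mul_comm] at h3
  have hy3' : (⟨y, hyH⟩ : H) ^ 3 ^ 1 = 1 := by
    apply Subtype.ext
    show y ^ 3 ^ 1 = 1
    rw [pow_one, pow_succ, pow_two]; exact hy3
  obtain ⟨⟨x, hxH⟩, hx⟩ := Cfsg.Agent.H859.SylEleven.exists_conj_mem hTp hidx ⟨1, hy3'⟩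
  have hx' : x * y * x⁻¹ ∈ T := hx
  obtain ⟨c, hc, s, hs, hcs⟩ := Cfsg.Agent.H858.Abs.exists_mul_of_mem_sup hnorm (Subgroup.inv_mem _ hxH)
  have hsT : s ∈ T := (le_sup_right : Subgroup.zpowers r ≤ T) hs
  have hxe : x = s⁻¹ * c⁻¹ := by rw [← inv_inv x, hcs, mul_inv_rev]
  have hcT' : c⁻¹ * y * c⁻¹⁻¹ ∈ T := by
    have h1 : c⁻¹ * y * c⁻¹⁻¹ = s * (x * y * x⁻¹) * s⁻¹ := by rw [hxe]; group
    rw [h1]
    exact Subgroup.mul_mem _ (Subgroup.mul_mem _ hsT hx') (Subgroup.inv_mem _ hsT)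
  refine ⟨c⁻¹, Subgroup.inv_mem _ hc, ?_⟩
  obtain ⟨i, j, hij⟩ := hTelt _ hcT'
  have hrot : Rot a b (w ^ i * r ^ j) := hij ▸ hy.conj (Subgroup.inv_mem _ hc)
  have hwi : w ^ i ∈ C2 a b := Subgroup.zpow_mem _ hw i
  have h1 : r⁻¹ * r ^ j ∈ C2 a b := by
    have h2 := hr.mem hrot
    have h3 : r⁻¹ * r ^ j = (w ^ i)⁻¹ * (r⁻¹ * (w ^ i * r ^ j)) := by
      have h4 : Commute r⁻¹ (w ^ i) := (hcw.zpow_left i).symm.inv_left
      calc r⁻¹ * r ^ j = (w ^ i)⁻¹ * (w ^ i * r⁻¹) * r ^ j := by group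
        _ = (w ^ i)⁻¹ * (r⁻¹ * w ^ i) * r ^ j := by rw [h4.eq]
        _ = _ := by group
    rw [h3]
    exact Subgroup.mul_mem _ (Subgroup.inv_mem _ hwi) h2
  have h2 : r⁻¹ * r ^ j ∈ Subgroup.zpowers r :=
    Subgroup.mul_mem _ (Subgroup.inv_mem _ (Subgroup.mem_zpowers r)) (Subgroup.zpow_mem _ (Subgroup.mem_zpowers r) j)
  have h3 : r⁻¹ * r ^ j = 1 := by
    have h4 : r⁻¹ * r ^ j ∈ C2 a b ⊓ Subgroup.zpowers r := ⟨h1, h2⟩
    rw [hinf] at h4
    exact Subgroup.mem_bot.1 h4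
  have h4 : r ^ j = r := by
    have h5 : r * (r⁻¹ * r ^ j) = r := by rw [h3, mul_one]
    rwa [mul_inv_cancel_left] at h5
  have h5 : w ^ i * r = r * w ^ i := (hcw.zpow_left i).eq
  rw [hij, h4, h5]
  have h6 : w ^ i = w ^ (i % 3) := by
    conv_lhs => rw [← Int.emod_add_mul_ediv i 3]
    rw [zpow_add, zpow_mul, show w ^ (3 : ℤ) = w ^ (3 : ℕ) from zpow_natCast w 3, hw3', one_zpow, mul_one]
  have h7 : i % 3 = 0 ∨ i % 3 = 1 ∨ i % 3 = 2 := by omega
  rw [h6]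
  rcases h7 with h7 | h7 | h7
  · left; rw [h7, zpow_zero, mul_one]
  · right; left; rw [h7, zpow_one]
  · right; right; rw [h7, show w ^ (2 : ℤ) = w ^ (2 : ℕ) from zpow_natCast w 2, pow_two]

end Cfsg.Agent.H265.JM.EQ
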