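import Cfsg.Agent.H265.JM.EQPair
import Cfsg.Agent.H265.JM.EQRot

/-!
# S5580, Part III, engine (Q): the centralizers of the two pairs (helper265)
-/

set_option autoImplicit false
set_option maxRecDepth 20000

open Cfsg

namespace Cfsg.Agent.H265.JM.EQ

open Cfsg.Agent.Lib Cfsg.Agent.Lib.F2MatGroup
open Cfsg.Agent.J4.Rep112 Cfsg.Agent.J4.LowerData Cfsg.Agent.J4.Beta
open Cfsg.Agent.J4.Classes Cfsg.Agent.J4.ClassesData Cfsg.Agent.J4.ClassesAbs
open Cfsg.Agent.H858.VK Cfsg.Agent.H878.JM.Base Cfsg.Agent.H858.Data Cfsg.Agent.H858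
open Cfsg.Agent.J4.Pres Cfsg.Agent.J4.M24Hom Cfsg.Agent.J4.Lower
open Cfsg.Agent.J4.Nodes (wordG wordP letG)
open Cfsg.Agent.H858.Pent (lin_xor lin_zero)
open Cfsg.Agent.J4.M24InvolData Cfsg.Agent.SporadicStructure.M24El
open Cfsg.Agent.J4.Invol (EJ s d)
open Cfsg.Agent.H860.JM

local notation "𝒢" => Cfsg.Spor.J4

/-- centralizers of 2B elements of `V` -/
theorem cent_le {e : 𝒢} (he : e ∈ EJ) (hd : IsConj d e) {c : 𝒢} (hc : c * e = e * c) :
    c ∈ Subgroup.normalizer (EJ : Set 𝒢) := by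
  obtain ⟨m, hm | hm⟩ := EJ_cases he (sq_of_conj d_mem d_ne hd).1
  · exact absurd ((isConj_iff.2 ⟨phi m, hm.symm⟩).trans hd.symm) Cfsg.Agent.J4.Invol.not_isConj_s_d
  · have h1 : (phi m)⁻¹ * c * phi m ∈ Subgroup.centralizer ({d} : Set 𝒢) := by
      rw [Subgroup.mem_centralizer_singleton_iff]
      rw [hm] at hc
      calc (phi m)⁻¹ * c * phi m * d = (phi m)⁻¹ * (c * (phi m * d * (phi m)⁻¹)) * phi m := by group
        _ = (phi m)⁻¹ * (phi m * d * (phi m)⁻¹ * c) * phi m := by rw [hc]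
        _ = _ := by group
    have h2 := Subgroup.mul_mem _ (Subgroup.mul_mem _ (phi_mem m) (cent_d_le h1)) (Subgroup.inv_mem _ (phi_mem m))
    have h3 : phi m * ((phi m)⁻¹ * c * phi m) * (phi m)⁻¹ = c := by group
    rw [h3] at h2
    exact h2

/-- uniqueness of the decomposition modulo `V` -/
theorem phi_eq_of {e f : 𝒢} (he : e ∈ EJ) (hf : f ∈ EJ) {k m : M24} (h : e * phi k = f * phi m) : k = m := by
  have h1 : phi (k * m⁻¹) = e⁻¹ * f := by
    rw [map_mul, map_inv]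
    calc phi k * (phi m)⁻¹ = e⁻¹ * (e * phi k) * (phi m)⁻¹ := by group
      _ = e⁻¹ * (f * phi m) * (phi m)⁻¹ := by rw [h]
      _ = e⁻¹ * f := by group
  have h2 : phi (k * m⁻¹) = 1 := inf_eq_one _ (h1 ▸ EJ.mul_mem (EJ.inv_mem he) hf) ⟨_, rfl⟩
  have h3 : k * m⁻¹ = 1 := phi_injective (by rw [h2, map_one])
  exact mul_inv_eq_one.1 h3

/-- the shape of an element centralizing the pair -/
theorem cent_form {l a : ℕ} (hl : IsConj d (V l)) {c : 𝒢} (hc : c ∈ C2 (V l) (V a * S1)) :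
    ∃ v < 2048, ∃ k : M24, k * el P1 = el P1 * k ∧ c = V v * phi k := by
  obtain ⟨h1, h2⟩ := mem_C2.1 hc
  have h3 : c ∈ Subgroup.normalizer (EJ : Set 𝒢) := cent_le (V_mem l) hl (mul_inv_eq_iff_eq_mul.1 h1)
  rw [NEJ_eq] at h3
  obtain ⟨e, he, k, hek⟩ := Cfsg.Agent.H858.VK.mem_B.1 h3
  obtain ⟨v, hv, hev⟩ := exists_V he
  refine ⟨v, hv, k, ?_, by rw [hek, hev]⟩
  have h4 : c * (V a * S1) = V a * S1 * c := mul_inv_eq_iff_eq_mul.1 h2
  have h5 : e * (phi k * V a * (phi k)⁻¹) * phi (k * el P1) = V a * (S1 * e * S1⁻¹) * phi (el P1 * k) := by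
    rw [map_mul, map_mul]
    calc e * (phi k * V a * (phi k)⁻¹) * (phi k * phi (el P1)) = (e * phi k) * (V a * S1) := by
          unfold S1; group
      _ = V a * S1 * (e * phi k) := by rw [← hek, h4]
      _ = V a * (S1 * e * S1⁻¹) * (phi (el P1) * phi k) := by unfold S1; group
  exact phi_eq_of (EJ.mul_mem he (conj_mem_N (phi_mem k) (V_mem a)))
    (EJ.mul_mem (V_mem a) (conj_mem_N (phi_mem (el P1)) he)) h5

theorem card_C2 {l a : ℕ} (hl : IsConj d (V l)) : Nat.card (C2 (V l) (V a * S1)) ∣ 2 ^ 21 * 21 := by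
  have hfin := Cfsg.Agent.H858.VK.finite_J4
  set K : Subgroup 𝒢 := (Subgroup.centralizer ({el P1} : Set M24)).map phi with hK
  have hle : C2 (V l) (V a * S1) ≤ EJ ⊔ K := by
    intro c hc
    obtain ⟨v, -, k, hk, e⟩ := cent_form hl hc
    rw [e]
    refine Subgroup.mul_mem _ ((le_sup_left : EJ ≤ EJ ⊔ K) (V_mem v)) ((le_sup_right : K ≤ EJ ⊔ K) ⟨k, ?_, rfl⟩)
    exact Subgroup.mem_centralizer_singleton_iff.2 hk
  have hn : K ≤ Subgroup.normalizer (EJ : Set 𝒢) := by
    rintro _ ⟨k, -, rfl⟩; exact phi_mem k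
  have hi : EJ ⊓ K = ⊥ := by
    rw [eq_bot_iff]
    rintro x ⟨h1, ⟨k, -, h2⟩⟩
    exact Subgroup.mem_bot.2 (inf_eq_one x h1 ⟨k, h2⟩)
  have hcK : Nat.card K = 21504 := by
    rw [hK, ← Cfsg.Agent.KFacts.M24Two.Orders.card_centralizer_z]
    exact (Nat.card_congr ((Subgroup.centralizer ({el P1} : Set M24)).equivMapOfInjective phi phi_injective).toEquiv).symm
  have h := Subgroup.card_dvd_of_le hle
  rw [Cfsg.Agent.H858.Abs.card_sup hn hi, card_EJ, hcK] at h
  exact h.trans (by norm_num)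

theorem not_nine {l a : ℕ} (hl : IsConj d (V l)) : ¬ 9 ∣ Nat.card (C2 (V l) (V a * S1)) := by
  intro h
  have h1 := h.trans (card_C2 (a := a) hl)
  revert h1
  norm_num

/-! ### class II: the centralizer is a 2-group -/

theorem can_im : ((List.range 2048).all fun v => Nat.beq (can (v ^^^ lin A1 v)) 0) = true := by decide +kernel

/-- membership in `[V, S1]` -/
def InIm (t : 𝒢) : Prop := ∃ e ∈ EJ, t = e * (S1 * e * S1⁻¹)

theorem inIm_V {l : ℕ} (hl : l < 2048) : InIm (V l) ↔ can l = 0 := by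
  constructor
  · rintro ⟨e, he, h⟩
    obtain ⟨v, hv, rfl⟩ := exists_V he
    rw [S1_V, ← V_xor] at h
    have h1 : l = v ^^^ lin A1 v := by
      refine V_inj hl ?_ h
      exact Nat.xor_lt_two_pow (n := 11) hv (lin_lt (by decide) v)
    have h2 := can_im
    rw [List.all_eq_true] at h2
    rw [h1]
    exact Nat.eq_of_beq_eq_true (h2 v (List.mem_range.2 hv))
  · intro h
    obtain ⟨v, hv⟩ := can_spec l
    refine ⟨V v, V_mem v, ?_⟩
    rw [h] at hv
    have h1 : l = v ^^^ lin A1 v := (Nat.xor_eq_zero_iff.1 hv.symm)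
    rw [S1_V, ← V_xor, ← h1]

theorem InIm.conj {x : M24} (hx : x * el P1 = el P1 * x) {t : 𝒢} (h : InIm t) : InIm (phi x * t * (phi x)⁻¹) := by
  obtain ⟨e, he, h⟩ := h
  refine ⟨phi x * e * (phi x)⁻¹, conj_mem_N (phi_mem x) he, ?_⟩
  have h1 : phi x * S1 * (phi x)⁻¹ = S1 := by
    unfold S1
    rw [← map_mul, hx, map_mul, mul_inv_cancel_right]
  rw [h]
  calc phi x * (e * (S1 * e * S1⁻¹)) * (phi x)⁻¹ = phi x * e * (phi x)⁻¹ *
        ((phi x * S1 * (phi x)⁻¹) * (phi x * e * (phi x)⁻¹) * (phi x * S1 * (phi x)⁻¹)⁻¹) := by group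
    _ = _ := by rw [h1]

/-- the check for class II -/
theorem chk2 : (fd.all fun l => Nat.beq (can l) 0 || (!(Nat.beq (lin Mm l) l) || (List.range 2048).all fun a =>
    !(Nat.beq (lin A1 a) a) || (Nat.beq (can a) 0 || (Nat.beq (can (a ^^^ l)) 0 ||
      !(Nat.beq (can (lin Mm a ^^^ a)) 0))))) = true := by decide +kernel

theorem chk2' {l a : ℕ} (hl : l ∈ fd) (ha : a < 2048) (h1 : can l ≠ 0) (h2 : lin Mm l = l) (h3 : lin A1 a = a)
    (h4 : can a ≠ 0) (h5 : can (a ^^^ l) ≠ 0) : can (lin Mm a ^^^ a) ≠ 0 := by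
  have h := chk2
  rw [List.all_eq_true] at h
  have k1 := h l hl
  rw [Bool.or_eq_true, Nat.beq_eq] at k1
  rcases k1 with k1 | k1
  · exact absurd k1 h1
  rw [h2, Nat.beq_refl, Bool.not_true, Bool.false_or, List.all_eq_true] at k1
  have k2 := k1 a (List.mem_range.2 ha)
  rw [h3, Nat.beq_refl, Bool.not_true, Bool.false_or, Bool.or_eq_true, Nat.beq_eq] at k2
  rcases k2 with k2 | k2
  · exact absurd k2 h4
  rw [Bool.or_eq_true, Nat.beq_eq] at k2
  rcases k2 with k2 | k2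
  · exact absurd k2 h5
  intro h6
  rw [h6] at k2
  exact absurd k2 (by decide)

/-- no element `V u · gm` centralizes a conjugate of the pair II -/
theorem no_gm {x : M24} (hx : x * el P1 = el P1 * x) {u : ℕ} (hd : IsConj d (V 1083))
    (h1 : V u * phi (wordG gm) * (phi x * V 1083 * (phi x)⁻¹) = phi x * V 1083 * (phi x)⁻¹ * (V u * phi (wordG gm)))
    (h2 : V u * phi (wordG gm) * (phi x * (V 1584 * S1) * (phi x)⁻¹) =
      phi x * (V 1584 * S1) * (phi x)⁻¹ * (V u * phi (wordG gm))) : False := by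
  have hS : phi x * S1 * (phi x)⁻¹ = S1 := by
    unfold S1
    rw [← map_mul, hx, map_mul, mul_inv_cancel_right]
  have hxi : x⁻¹ * el P1 = el P1 * x⁻¹ := by
    rw [inv_mul_eq_iff_eq_mul, ← mul_assoc, hx, mul_inv_cancel_right]
  obtain ⟨l, hl, el⟩ := exists_V (conj_mem_N (phi_mem x) (V_mem 1083))
  obtain ⟨a, ha, ea⟩ := exists_V (conj_mem_N (phi_mem x) (V_mem 1584))
  have e2 : phi x * (V 1584 * S1) * (phi x)⁻¹ = V a * S1 := by
    calc phi x * (V 1584 * S1) * (phi x)⁻¹ = (phi x * V 1584 * (phi x)⁻¹) * (phi x * S1 * (phi x)⁻¹) := by group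
      _ = V a * S1 := by rw [ea, hS]
  rw [el] at h1
  rw [e2] at h2
  have back : ∀ {t t' : 𝒢}, phi x * t * (phi x)⁻¹ = t' → InIm t' → InIm t := by
    intro t t' h h'
    have h3 := h'.conj (x := x⁻¹) hxi
    have h4 : phi x⁻¹ * t' * (phi x⁻¹)⁻¹ = t := by rw [← h, map_inv]; group
    rw [h4] at h3
    exact h3
  -- fixed by `S1`
  have hfix : ∀ {m n : ℕ}, n < 2048 → lin A1 m = m → phi x * V m * (phi x)⁻¹ = V n → lin A1 n = n := by
    intro m n hn h3 h4
    apply V_inj (lin_lt (by decide) n) hn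
    rw [← S1_V, ← h4]
    calc S1 * (phi x * V m * (phi x)⁻¹) * S1⁻¹ = phi x * (((phi x)⁻¹ * S1 * phi x) * V m *
          ((phi x)⁻¹ * S1 * phi x)⁻¹) * (phi x)⁻¹ := by group
      _ = phi x * (S1 * V m * S1⁻¹) * (phi x)⁻¹ := by
          have : (phi x)⁻¹ * S1 * phi x = S1 := by
            conv_lhs => rw [← hS]
            group
          rw [this]
      _ = _ := by rw [S1_V, h3]
  have hl1 : lin A1 l = l := hfix hl (by decide +kernel) el
  have ha1 : lin A1 a = a := hfix ha (by decide +kernel) ea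
  have hld : l ∈ duads := mem_duads hl (by rw [← el]; exact isConj_conj hd)
  have hfd : l ∈ fd := by
    have h := fd_ok
    rw [List.all_eq_true] at h
    have h3 := h l hld
    rw [hl1, Nat.beq_refl, Bool.not_true, Bool.false_or, List.contains_iff_mem] at h3
    exact h3
  have c1 : can l ≠ 0 := by
    intro h
    have h3 := (inIm_V (by norm_num)).1 (back el ((inIm_V hl).2 h))
    exact absurd h3 (by decide +kernel)
  have c2 : can a ≠ 0 := by
    intro h
    have h3 := (inIm_V (by norm_num)).1 (back ea ((inIm_V ha).2 h))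
    exact absurd h3 (by decide +kernel)
  have c3 : can (a ^^^ l) ≠ 0 := by
    intro h
    have e3 : phi x * V (1584 ^^^ 1083) * (phi x)⁻¹ = V (a ^^^ l) := by
      rw [V_xor, V_xor, ← ea, ← el]; group
    have h3 := (inIm_V (by decide)).1 (back e3 ((inIm_V (Nat.xor_lt_two_pow (n := 11) ha hl)).2 h))
    exact absurd h3 (by decide +kernel)
  have hm1 : lin Mm l = l := by
    apply V_inj (lin_lt (by decide) l) hl
    rw [← acts_m.act]
    have h3 : V u * (phi (wordG gm) * V l) = V u * (V l * phi (wordG gm)) := by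
      calc V u * (phi (wordG gm) * V l) = V u * phi (wordG gm) * V l := by group
        _ = V l * (V u * phi (wordG gm)) := h1
        _ = (V l * V u) * phi (wordG gm) := by group
        _ = (V u * V l) * phi (wordG gm) := by rw [V_comm]
        _ = _ := by group
    rw [mul_left_cancel h3, mul_inv_cancel_right]
  apply chk2' hfd ha c1 hm1 ha1 c2 c3
  have h3 : V u * (V (lin Mm a) * S1) * (V u)⁻¹ = V a * S1 := by
    rw [← acts_m.pair]
    calc V u * (phi (wordG gm) * (V a * S1) * (phi (wordG gm))⁻¹) * (V u)⁻¹ =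
          (V u * phi (wordG gm) * (V a * S1)) * (V u * phi (wordG gm))⁻¹ := by group
      _ = V a * S1 := by rw [h2, mul_inv_cancel_right]
  rw [V_shift] at h3
  have h4 := mul_right_cancel h3
  refine (inIm_V (Nat.xor_lt_two_pow (n := 11) (lin_lt (by decide) a) ha)).1 ⟨V u, V_mem u, ?_⟩
  rw [S1_V, ← V_xor, V_xor]
  rw [V_xor] at h4
  rw [← h4]
  rw [← mul_assoc, V_sq, one_mul]

theorem not_three (hd : IsConj d (V 1083)) : ¬ 3 ∣ Nat.card (C2 (V 1083) (V 1584 * S1)) := by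
  have hfin := Cfsg.Agent.H858.VK.finite_J4
  have hfact : Fact (Nat.Prime 3) := ⟨Nat.prime_three⟩
  intro h
  obtain ⟨⟨c, hc⟩, hord⟩ := exists_prime_orderOf_dvd_card' 3 h
  rw [Subgroup.orderOf_mk] at hord
  have hc3 : c * c * c = 1 := by
    have h1 := pow_orderOf_eq_one c
    rw [hord, pow_succ, pow_two] at h1
    exact h1
  have hc1 : c ≠ 1 := by
    rintro rfl
    rw [orderOf_one] at hord
    exact absurd hord (by norm_num)
  obtain ⟨v, hv, k, hk, hck⟩ := cent_form hd hc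
  have hk3 : k * k * k = 1 := by
    have h1 : (V v * (phi k * V v * (phi k)⁻¹) * (phi (k * k) * V v * (phi (k * k))⁻¹)) * phi (k * k * k) = 1 * phi 1 := by
      rw [map_one, mul_one, ← hc3, hck]
      simp only [map_mul]
      group
    exact phi_eq_of (EJ.mul_mem (EJ.mul_mem (V_mem v) (conj_mem_N (phi_mem k) (V_mem v)))
      (conj_mem_N (phi_mem _) (V_mem v))) (EJ.one_mem) h1
  have hk1 : k ≠ 1 := by
    rintro rfl
    apply hc1
    rw [map_one, mul_one] at hck
    rw [hck, V_sq, one_mul, ← hck] at hc3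
    exact hc3
  -- Sylow in the centralizer of `el P1`
  set Z : Subgroup M24 := Subgroup.centralizer ({el P1} : Set M24) with hZ
  have hcZ : Nat.card Z = 21504 := Cfsg.Agent.KFacts.M24Two.Orders.card_centralizer_z
  have hgZ : wordG gm ∈ Z := Subgroup.mem_centralizer_singleton_iff.2 comm_gm
  have hkZ : k ∈ Z := Subgroup.mem_centralizer_singleton_iff.2 hk
  have hog : orderOf (wordG gm) = 3 := orderOf_eq_prime gm_cube gm_ne
  set P : Subgroup M24 := Subgroup.zpowers (wordG gm) with hP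
  have hPZ : P ≤ Z := by rw [hP, Subgroup.zpowers_le]; exact hgZ
  have hcP : Nat.card P = 3 := by rw [hP, Nat.card_zpowers, hog]
  have hp : IsPGroup 3 (P.subgroupOf Z) := by
    apply IsPGroup.of_card (n := 1)
    rw [Nat.card_congr (Subgroup.subgroupOfEquivOfLe hPZ).toEquiv, hcP, pow_one]
  have hidx : ¬ 3 ∣ (P.subgroupOf Z).index := by
    intro h
    have h1 := (P.subgroupOf Z).card_mul_index
    rw [Nat.card_congr (Subgroup.subgroupOfEquivOfLe hPZ).toEquiv, hcP, hcZ] at h1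
    have h2 : (P.subgroupOf Z).index = 7168 := by omega
    rw [h2] at h
    revert h
    norm_num
  have hk3' : (⟨k, hkZ⟩ : Z) ^ 3 ^ 1 = 1 := by
    apply Subtype.ext
    show k ^ 3 ^ 1 = 1
    rw [pow_one, pow_succ, pow_two]; exact hk3
  obtain ⟨⟨x, hxZ⟩, hx⟩ := Cfsg.Agent.H859.SylEleven.exists_conj_mem hp hidx ⟨1, hk3'⟩
  have hx' : x * k * x⁻¹ ∈ P := hx
  have hxc : x * el P1 = el P1 * x := Subgroup.mem_centralizer_singleton_iff.1 hxZ
  have hne : x * k * x⁻¹ ≠ 1 := by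
    intro h
    apply hk1
    have h1 : k = x⁻¹ * (x * k * x⁻¹) * x := by group
    rw [h1, h]; group
  have hcases : x * k * x⁻¹ = wordG gm ∨ x * k⁻¹ * x⁻¹ = wordG gm := by
    obtain ⟨i, hi⟩ := hx'
    have hi' : (wordG gm) ^ i = x * k * x⁻¹ := hi
    have h6 : (wordG gm) ^ i = (wordG gm) ^ (i % 3) := by
      conv_lhs => rw [← Int.emod_add_mul_ediv i 3]
      rw [zpow_add, zpow_mul, show (wordG gm) ^ (3 : ℤ) = (wordG gm) ^ (3 : ℕ) from zpow_natCast _ 3, gm_cube, one_zpow,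
        mul_one]
    have h7 : i % 3 = 0 ∨ i % 3 = 1 ∨ i % 3 = 2 := by omega
    rw [h6] at hi'
    rcases h7 with h7 | h7 | h7
    · rw [h7, zpow_zero] at hi'
      exact absurd hi'.symm hne
    · rw [h7, zpow_one] at hi'
      exact Or.inl hi'.symm
    · right
      rw [h7, show (wordG gm) ^ (2 : ℤ) = (wordG gm) ^ (2 : ℕ) from zpow_natCast _ 2] at hi'
      have h8 : x * k⁻¹ * x⁻¹ = (x * k * x⁻¹)⁻¹ := by group
      rw [h8, ← hi']
      have h9 := gm_cube
      rw [pow_succ] at h9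
      exact inv_eq_of_mul_eq_one_right h9
  -- a centralizing element `V u * phi k'` with `x k' x⁻¹ = gm`
  have key : ∀ (c : 𝒢) (k : M24) (v : ℕ), c ∈ C2 (V 1083) (V 1584 * S1) → c = V v * phi k → x * k * x⁻¹ = wordG gm →
      False := by
    intro c k v hc hck hxk
    obtain ⟨m1, m2⟩ := mem_C2.1 hc
    obtain ⟨u, -, hu⟩ := exists_V (conj_mem_N (phi_mem x) (V_mem v))
    have e : V u * phi (wordG gm) = phi x * c * (phi x)⁻¹ := by
      rw [← hu, ← hxk, hck, map_mul, map_mul, map_inv]; group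
    have n1 : c * V 1083 = V 1083 * c := mul_inv_eq_iff_eq_mul.1 m1
    have n2 : c * (V 1584 * S1) = V 1584 * S1 * c := mul_inv_eq_iff_eq_mul.1 m2
    apply no_gm hxc (u := u) hd
    · rw [e]
      calc phi x * c * (phi x)⁻¹ * (phi x * V 1083 * (phi x)⁻¹) = phi x * (c * V 1083) * (phi x)⁻¹ := by group
        _ = phi x * (V 1083 * c) * (phi x)⁻¹ := by rw [n1]
        _ = _ := by group
    · rw [e]
      calc phi x * c * (phi x)⁻¹ * (phi x * (V 1584 * S1) * (phi x)⁻¹) = phi x * (c * (V 1584 * S1)) * (phi x)⁻¹ := by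
            group
        _ = phi x * (V 1584 * S1 * c) * (phi x)⁻¹ := by rw [n2]
        _ = _ := by group
  rcases hcases with h1 | h1
  · exact key c k v hc hck h1
  · obtain ⟨v', -, k', -, hck'⟩ := cent_form hd (Subgroup.inv_mem _ hc)
    have h2 : k' = k⁻¹ := by
      have h3 : V v' * phi k' = (phi k⁻¹ * V v * (phi k⁻¹)⁻¹) * phi k⁻¹ := by
        rw [← hck', hck, map_inv, mul_inv_rev, V_inv]; group
      exact phi_eq_of (V_mem v') (conj_mem_N (phi_mem _) (V_mem v)) h3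
    exact key c⁻¹ k' v' (Subgroup.inv_mem _ hc) hck' (by rw [h2]; exact h1)

end Cfsg.Agent.H265.JM.EQ
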