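import Cfsg.Agent.H265.JM.EQData
import Cfsg.Agent.H541.JM.F13
import Cfsg.Agent.H860.JM.Basic
import Cfsg.Agent.KFacts.M24Two.Orders

/-!
# S5580, Part III, engine (Q): pairs of commuting 2B elements (helper265)

`pair_cases` : `t₁ ∈ V`, `t₂ ∈ N(V) ∖ V` commuting, `t₁, t₂, t₁t₂` of class 2B: the pair `(t₁, t₂)` is conjugate to one
of two explicit pairs.
-/

set_option autoImplicit false
set_option maxRecDepth 20000

open Cfsg

namespace Cfsg.Agent.H265.JM.EQ

open Cfsg.Agent.Lib Cfsg.Agent.Lib.F2MatGroup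
open Cfsg.Agent.J4.Rep112 Cfsg.Agent.J4.LowerData Cfsg.Agent.J4.Beta
open Cfsg.Agent.J4.Classes Cfsg.Agent.J4.ClassesData Cfsg.Agent.J4.ClassesAbs
open Cfsg.Agent.H858.VK Cfsg.Agent.H878.JM.Base Cfsg.Agent.H858.Data Cfsg.Agent.H858
open Cfsg.Agent.J4.Pres Cfsg.Agent.J4.M24Hom Cfsg.Agent.J4.Lower
open Cfsg.Agent.J4.Nodes (wordG wordP letG)
open Cfsg.Agent.H858.Pent (lin_xor lin_zero)
open Cfsg.Agent.J4.M24InvolData Cfsg.Agent.SporadicStructure.M24El
open Cfsg.Agent.J4.Invol (EJ s d)
open Cfsg.Agent.H860.JM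

local notation "𝒢" => Cfsg.Spor.J4

/-- the environment -/
noncomputable def LE : List 𝒢 := runG slpE LJ

theorem map_LE : LE.map rho = runG (slpJ ++ slpE) mgens := by
  unfold LE LJ mgens
  rw [runG_append, runG_map, runG_map]

theorem soundE : (∀ p ∈ esE, evG LE p.1 = evG LE p.2) ∧ getG LE 6 ≠ 1 := by
  obtain ⟨L', h', hk⟩ := run_sound codes_gens checkE
  have h'' : List.Forall₂ (Codes 112) (LE.map rho) L' := by rw [map_LE]; exact h'
  rcases hb : eqs 112 esE L' with _ | _
  · rw [hb] at hk; exact absurd hk Bool.false_ne_true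
  · rw [hb] at hk
    have hc : neqs 112 [([6], [])] L' = true := hk
    constructor
    · intro p hp
      apply Cfsg.Agent.H858.VK.rho_injective
      rw [← evG_map, ← evG_map]
      exact eqs_sound h'' hb p hp
    · intro h0
      apply neqs_sound (by norm_num) h'' hc ([6], []) (by simp)
      rw [evG_map, evG_map]
      rw [evG_cons, evG_nil, h0, mul_one]

theorem eqE {a b : List ℕ} (h : (a, b) ∈ esE) : evG LE a = evG LE b := soundE.1 _ h

theorem slpE_length : slpE.length = 20 := by decide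
theorem slpA_length : slpA.length = 19 := by decide

theorem getG_LE (i : ℕ) : getG LE (20 + i) = getG LJ i := by
  have h := getG_runG slpE LJ i
  rwa [slpE_length] at h

theorem getG_LJ {i : ℕ} (hi : i < 11) : getG LJ (19 + i) = lJ.getD i 1 := by
  have e : LJ = runG slpA (runG slpQ gens) := by
    unfold LJ slpJ
    rw [runG_append]
  have h := getG_runG slpA (runG slpQ gens) i
  rw [slpA_length, ← e] at h
  exact h.trans (getG_take _ 11 i hi)

theorem getG_LE' {i : ℕ} (hi : i < 11) : getG LE (39 + i) = lJ.getD i 1 := by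
  rw [show 39 + i = 20 + (19 + i) by ring, getG_LE, getG_LJ hi]

/-- word of a vector -/
abbrev be (v : ℕ) : List ℕ := bw 11 39 v

theorem evG_be (v : ℕ) : evG LE (be v) = V v := by
  have h := evG_bw LE lJ 39 v (by rw [lJ_length]; exact fun i hi => getG_LE' hi)
  rwa [lJ_length] at h

theorem x_eq : getG LE 52 = x := rfl
theorem y_eq : getG LE 53 = y := rfl
theorem y_eq' : getG LE 54 = y⁻¹ := rfl

/-! ### words in `M24` -/

theorem wordG_ev {w : List ℕ} (hw : ∀ i ∈ w, i < 3) : wordG w = evG [XM, YM, YM⁻¹] w := by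
  induction w with
  | nil => rfl
  | cons i w ih =>
    rw [evG_cons, ← ih fun j hj => hw j (List.mem_cons_of_mem _ hj)]
    have hi := hw i List.mem_cons_self
    show letG i * wordG w = _
    congr 1
    interval_cases i <;> rfl

theorem ev_phi {w : List ℕ} (hw : ∀ i ∈ w, i < 3) : evG [x, y, y⁻¹] w = phi (wordG w) := by
  rw [wordG_ev hw]
  have h : [x, y, y⁻¹] = [XM, YM, YM⁻¹].map phi := by
    simp only [List.map_cons, List.map_nil, map_inv, phi_X, phi_Y]
  rw [h, evG_map]

theorem el_P1' : el P1 = wordG wS := by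
  rw [wordG_ev (by decide)]
  exact el_P1

/-- the involution `phi (el P1)` -/
noncomputable def S1 : 𝒢 := phi (el P1)

theorem S1_eq : getG LE 19 = S1 := by
  have h1 : getG LE 19 = evG LJ (wS.map (32 + ·)) := rfl
  rw [h1, evG_shift (L' := [x, y, y⁻¹]), ev_phi (by decide), ← el_P1']
  · rfl
  · intro i hi
    have h3 : i = 0 ∨ i = 1 ∨ i = 2 := by
      have : ∀ i ∈ wS, i = 0 ∨ i = 1 ∨ i = 2 := by decide
      exact this i hi
    rcases h3 with rfl | rfl | rfl <;> rfl

theorem mat_wS : mat wS = A1 := by decide +kernel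
theorem mat_ga : mat ga = Ma := by decide +kernel
theorem mat_gb : mat gb = Mb := by decide +kernel
theorem mat_gm : mat gm = Mm := by decide +kernel

theorem comm_of {w : List ℕ} (h : wordP (w ++ wS) = wordP (wS ++ w)) : wordG w * el P1 = el P1 * wordG w := by
  rw [el_P1', ← M24Norm.wordG_append, ← M24Norm.wordG_append]
  exact M24Norm.wordG_eq h

theorem comm_ga : wordG ga * el P1 = el P1 * wordG ga := comm_of (by decide +kernel)
theorem comm_gb : wordG gb * el P1 = el P1 * wordG gb := comm_of (by decide +kernel)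
theorem comm_gm : wordG gm * el P1 = el P1 * wordG gm := comm_of (by decide +kernel)

theorem gm_cube : wordG gm ^ 3 = 1 := by
  have h : wordG (gm ++ (gm ++ gm)) = wordG [] := M24Norm.wordG_eq (by decide +kernel)
  rw [M24Norm.wordG_append, M24Norm.wordG_append] at h
  rw [pow_succ, pow_two, mul_assoc]
  exact h

theorem gm_ne : wordG gm ≠ 1 := by
  intro h
  have h1 := conj_V (isMat_word gm) 1
  rw [h, map_one, one_mul, inv_one, mul_one, mat_gm] at h1
  have h2 := V_inj (by norm_num) (lin_lt (by decide) 1) h1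
  revert h2
  decide +kernel

theorem S1_V (v : ℕ) : S1 * V v * S1⁻¹ = V (lin A1 v) := by
  have h := conj_V (isMat_word wS) v
  rw [mat_wS, ← el_P1'] at h
  exact h

theorem S1_sq : S1 * S1 = 1 := by
  have h : wordG (wS ++ wS) = wordG [] := M24Norm.wordG_eq (by decide +kernel)
  rw [M24Norm.wordG_append, ← el_P1'] at h
  unfold S1
  rw [← map_mul, h]
  exact map_one phi

theorem S1_inv : S1⁻¹ = S1 := inv_eq_of_mul_eq_one_left S1_sq

theorem S1_V' (v : ℕ) : S1 * V v = V (lin A1 v) * S1 := by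
  rw [← S1_V]; group

/-- `g` acts with matrix `M` and commutes with `S1` -/
structure Acts (g : 𝒢) (M : List ℕ) : Prop where
  act : ∀ v, g * V v * g⁻¹ = V (lin M v)
  comm : g * S1 = S1 * g

theorem Acts.pair {g : 𝒢} {M : List ℕ} (h : Acts g M) (a : ℕ) : g * (V a * S1) * g⁻¹ = V (lin M a) * S1 := by
  rw [← h.act]
  calc g * (V a * S1) * g⁻¹ = g * V a * S1 * g⁻¹ := by group
    _ = g * V a * (g⁻¹ * (g * S1)) * g⁻¹ := by group
    _ = g * V a * (g⁻¹ * (S1 * g)) * g⁻¹ := by rw [h.comm]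
    _ = g * V a * g⁻¹ * S1 := by group

theorem acts_a : Acts (phi (wordG ga)) Ma where
  act v := by rw [← mat_ga]; exact conj_V (isMat_word ga) v
  comm := by unfold S1; rw [← map_mul, comm_ga, map_mul]

theorem acts_b : Acts (phi (wordG gb)) Mb where
  act v := by rw [← mat_gb]; exact conj_V (isMat_word gb) v
  comm := by unfold S1; rw [← map_mul, comm_gb, map_mul]

theorem acts_m : Acts (phi (wordG gm)) Mm where
  act v := by rw [← mat_gm]; exact conj_V (isMat_word gm) v
  comm := by unfold S1; rw [← map_mul, comm_gm, map_mul]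

/-! ### normal form modulo `[V, S1]` -/

/-- one reduction step -/
def red1 (t : ℕ × ℕ × ℕ) (a : ℕ) : ℕ := cond (a.testBit t.1) (a ^^^ t.2.2) a

/-- normal form -/
def can (a : ℕ) : ℕ := bas.foldl (fun a t => red1 t a) a

theorem bas_ok : ∀ t ∈ bas, t.2.1 ^^^ lin A1 t.2.1 = t.2.2 := by decide +kernel

theorem can_spec (a : ℕ) : ∃ v, can a = a ^^^ (v ^^^ lin A1 v) := by
  have key : ∀ (B : List (ℕ × ℕ × ℕ)), (∀ t ∈ B, t.2.1 ^^^ lin A1 t.2.1 = t.2.2) → ∀ a,
      ∃ v, B.foldl (fun a t => red1 t a) a = a ^^^ (v ^^^ lin A1 v) := by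
    intro B
    induction B with
    | nil => exact fun _ a => ⟨0, by simp [lin_zero]⟩
    | cons t B ih =>
      intro hB a
      obtain ⟨v, hv⟩ := ih (fun t ht => hB t (List.mem_cons_of_mem _ ht)) (red1 t a)
      rw [List.foldl_cons, hv]
      unfold red1
      rcases a.testBit t.1 with _ | _
      · exact ⟨v, rfl⟩
      · refine ⟨t.2.1 ^^^ v, ?_⟩
        rw [cond_true, ← hB t List.mem_cons_self, lin_xor]
        ac_rfl
  exact key bas bas_ok a

/-! ### the pairs -/

/-- the pair is conjugate to one of the two standard pairs -/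
def PP (t₁ t₂ : 𝒢) : Prop := ∃ g : 𝒢, (g * t₁ * g⁻¹ = V 433 ∧ g * t₂ * g⁻¹ = V 517 * S1) ∨
  (g * t₁ * g⁻¹ = V 1083 ∧ g * t₂ * g⁻¹ = V 1584 * S1)

theorem PP.conj {t₁ t₂ : 𝒢} (k : 𝒢) (h : PP (k * t₁ * k⁻¹) (k * t₂ * k⁻¹)) : PP t₁ t₂ := by
  obtain ⟨g, hg⟩ := h
  refine ⟨g * k, ?_⟩
  have e : ∀ t : 𝒢, g * k * t * (g * k)⁻¹ = g * (k * t * k⁻¹) * g⁻¹ := fun t => by group
  rw [e, e]
  exact hg

theorem V_shift (v a : ℕ) : V v * (V a * S1) * (V v)⁻¹ = V (a ^^^ (v ^^^ lin A1 v)) * S1 := by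
  rw [V_inv, V_xor, V_xor]
  calc V v * (V a * S1) * V v = V v * V a * (S1 * V v) := by group
    _ = V v * V a * (V (lin A1 v) * S1) := by rw [S1_V']
    _ = (V v * V a) * V (lin A1 v) * S1 := by group
    _ = (V a * V v) * V (lin A1 v) * S1 := by rw [V_comm v a]
    _ = V a * (V v * V (lin A1 v)) * S1 := by group

theorem V_conj_V (v l : ℕ) : V v * V l * (V v)⁻¹ = V l := by
  rw [V_comm, mul_inv_cancel_right]

theorem PP_can {l a : ℕ} (h : PP (V l) (V (can a) * S1)) : PP (V l) (V a * S1) := by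
  obtain ⟨v, hv⟩ := can_spec a
  apply PP.conj (V v)
  rw [V_conj_V, V_shift, ← hv]
  exact h

theorem PP_step {g : 𝒢} {M : List ℕ} (hg : Acts g M) {l a : ℕ} (h : PP (V (lin M l)) (V (can (lin M a)) * S1)) :
    PP (V l) (V a * S1) := by
  apply PP.conj g
  rw [hg.act, hg.pair]
  exact PP_can h

/-- check of an orbit list -/
def chk : List (ℕ × ℕ) → List (ℕ × ℕ × ℕ) → Bool
  | _, [] => true
  | seen, t :: r => (cond (Nat.beq t.2.2 0) (seen.contains (lin Ma t.1, can (lin Ma t.2.1)))
      (seen.contains (lin Mb t.1, can (lin Mb t.2.1)))) && chk ((t.1, t.2.1) :: seen) r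

theorem hs_pair {seen : List (ℕ × ℕ)} (hs : ∀ p ∈ seen, PP (V p.1) (V p.2 * S1)) {a b : ℕ}
    (h : seen.contains (a, b) = true) : PP (V a) (V b * S1) := hs (a, b) (List.contains_iff_mem.1 h)

theorem chk_sound (o : List (ℕ × ℕ × ℕ)) : ∀ seen, chk seen o = true →
    (∀ p ∈ seen, PP (V p.1) (V p.2 * S1)) → ∀ t ∈ o, PP (V t.1) (V t.2.1 * S1) := by
  induction o with
  | nil => intro _ _ _ t ht; exact absurd ht (by simp)
  | cons t r ih =>
    intro seen hc hs
    obtain ⟨l, a, m⟩ := t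
    have hc' : ((cond (Nat.beq m 0) (seen.contains (lin Ma l, can (lin Ma a)))
      (seen.contains (lin Mb l, can (lin Mb a)))) && chk ((l, a) :: seen) r) = true := hc
    clear hc
    rw [Bool.and_eq_true] at hc'
    obtain ⟨hc1, hc2⟩ := hc'
    have ht : PP (V l) (V a * S1) := by
      rcases hb : Nat.beq m 0 with _ | _
      · rw [hb, cond_false] at hc1
        have h := hs_pair hs hc1
        exact PP_step (M := Mb) (l := l) (a := a) acts_b h
      · rw [hb, cond_true] at hc1
        have h := hs_pair hs hc1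
        exact PP_step (M := Ma) (l := l) (a := a) acts_a h
    intro t' ht'
    rcases List.mem_cons.1 ht' with h | h
    · rw [h]; exact ht
    · refine ih ((l, a) :: seen) hc2 ?_ t' h
      intro p hp
      rcases List.mem_cons.1 hp with h | h
      · rw [h]; exact ht
      · exact hs p h

theorem PP_rootI : PP (V 433) (V 517 * S1) := ⟨1, Or.inl ⟨by group, by group⟩⟩
theorem PP_rootT : PP (V 1083) (V 1584 * S1) := ⟨1, Or.inr ⟨by group, by group⟩⟩

theorem chk_I : chk [(433, 517)] oI = true := by decide +kernel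
theorem chk_T : chk [(1083, 1584)] oT = true := by decide +kernel

theorem seed_I (p : ℕ × ℕ) (hp : p ∈ [((433 : ℕ), (517 : ℕ))]) : PP (V p.1) (V p.2 * S1) := by
  have e : p = (433, 517) := List.mem_singleton.1 hp
  have e1 : p.1 = 433 := by rw [e]
  have e2 : p.2 = 517 := by rw [e]
  rw [e1, e2]
  exact PP_rootI

theorem seed_T (p : ℕ × ℕ) (hp : p ∈ [((1083 : ℕ), (1584 : ℕ))]) : PP (V p.1) (V p.2 * S1) := by
  have e : p = (1083, 1584) := List.mem_singleton.1 hp
  have e1 : p.1 = 1083 := by rw [e]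
  have e2 : p.2 = 1584 := by rw [e]
  rw [e1, e2]
  exact PP_rootT

theorem PP_I (t : ℕ × ℕ × ℕ) (ht : t ∈ oI) : PP (V t.1) (V t.2.1 * S1) :=
  chk_sound oI [(433, 517)] chk_I seed_I t ht

theorem PP_T (t : ℕ × ℕ × ℕ) (ht : t ∈ oT) : PP (V t.1) (V t.2.1 * S1) :=
  chk_sound oT [(1083, 1584)] chk_T seed_T t ht

/-- all pairs in the lists -/
def allp : List (ℕ × ℕ) := (433, 517) :: (1083, 1584) :: ((oI ++ oT).map fun t => (t.1, t.2.1))

theorem PP_gen (A B : List (ℕ × ℕ × ℕ)) (hA : ∀ t ∈ A, PP (V t.1) (V t.2.1 * S1))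
    (hB : ∀ t ∈ B, PP (V t.1) (V t.2.1 * S1)) (p : ℕ × ℕ)
    (hp : p ∈ ((433 : ℕ), (517 : ℕ)) :: (1083, 1584) :: ((A ++ B).map fun t => (t.1, t.2.1))) :
    PP (V p.1) (V p.2 * S1) := by
  rw [List.mem_cons, List.mem_cons, List.mem_map] at hp
  obtain hp | hp | ⟨t, ht, hp⟩ := hp
  · exact seed_I p (List.mem_singleton.2 hp)
  · exact seed_T p (List.mem_singleton.2 hp)
  · rw [← hp]
    rcases List.mem_append.1 ht with ht | ht
    · exact hA t ht
    · exact hB t ht

theorem PP_allp (p : ℕ × ℕ) (hp : p ∈ allp) : PP (V p.1) (V p.2 * S1) := PP_gen oI oT PP_I PP_T p hp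

/-- coverage -/
def cover : Bool := [0, 34, 517, 551, 1047, 1077, 1554, 1584].all fun a => Nat.beq a 0 ||
  fd.all fun l => Nat.beq (can (l ^^^ a)) 0 || allp.contains (l, a)

theorem cover_ok : cover = true := by decide +kernel

theorem fd_ok : (duads.all fun l => !(Nat.beq (lin A1 l) l) || fd.contains l) = true := by decide +kernel

theorem duads_ok : (duads.all fun l => duads.contains (lin Ax l) && duads.contains (lin Ay l)) = true := by
  decide +kernel

/-! ### the class 2B in `V` -/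

theorem act_duads (w : List ℕ) : ∀ {l : ℕ}, l ∈ duads → actG Ax Ay w l ∈ duads := by
  have h := duads_ok
  rw [List.all_eq_true] at h
  have hx : ∀ l ∈ duads, lin Ax l ∈ duads := fun l hl => by
    have := h l hl
    rw [Bool.and_eq_true, List.contains_iff_mem, List.contains_iff_mem] at this
    exact this.1
  have hy : ∀ l ∈ duads, lin Ay l ∈ duads := fun l hl => by
    have := h l hl
    rw [Bool.and_eq_true, List.contains_iff_mem, List.contains_iff_mem] at this
    exact this.2
  induction w with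
  | nil => exact fun hl => hl
  | cons i w ih =>
    intro l hl
    have h1 := ih hl
    rcases i with _ | _ | i
    · exact hx _ h1
    · exact hy _ (hy _ h1)
    · exact hy _ h1

end Cfsg.Agent.H265.JM.EQ
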