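import Cfsg.Agent.H265.JM.EQOrb

/-!
# S5580, Part III, engine (Q): the two classes of pairs (helper265)

`pair_cases` : `t₁ ∈ V`, `t₂ ∈ N(V) ∖ V` commuting, `t₁, t₂, t₁t₂` of class 2B: the pair `(t₁, t₂)` is conjugate to one
of two explicit pairs.
-/

set_option autoImplicit false
set_option maxRecDepth 20000

open Cfsg

namespace Cfsg.Agent.H265.JM.EQ

open Cfsg.Agent.Lib Cfsg.Agent.Lib.F2MatGroup
open Cfsg.Agent.J4.Rep112 Cfsg.Agent.J4.LowerData Cfsg.Agent.J4.Beta
open Cfsg.Agent.J4.Classes Cfsg.Agent.J4.ClassesData Cfsg.Agent.J4.ClassesAbs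
open Cfsg.Agent.H858.VK Cfsg.Agent.H878.JM.Base Cfsg.Agent.H858.Data Cfsg.Agent.H858
open Cfsg.Agent.J4.Pres Cfsg.Agent.J4.M24Hom Cfsg.Agent.J4.Lower
open Cfsg.Agent.J4.Nodes (wordG wordP letG)
open Cfsg.Agent.H858.Pent (lin_xor lin_zero)
open Cfsg.Agent.J4.M24InvolData Cfsg.Agent.SporadicStructure.M24El
open Cfsg.Agent.J4.Invol (EJ s d)
open Cfsg.Agent.H860.JM

local notation "𝒢" => Cfsg.Spor.J4

/-! ### the class 2B in `V` -/

theorem duads_mat : (duads.all fun l => duads.contains (lin (mat [0]) l) && duads.contains (lin (mat [1]) l) &&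
    duads.contains (lin (mat [2]) l)) = true := by decide +kernel

theorem duads_lt : (duads.all fun l => Nat.blt l 2048) = true := by decide +kernel

theorem mem_duads_mat {l : ℕ} (hl : l ∈ duads) : ∀ i < 3, lin (mat [i]) l ∈ duads := by
  have h := duads_mat
  rw [List.all_eq_true] at h
  have h1 := h l hl
  rw [Bool.and_eq_true, Bool.and_eq_true, List.contains_iff_mem, List.contains_iff_mem, List.contains_iff_mem] at h1
  intro i hi
  have h3 : i = 0 ∨ i = 1 ∨ i = 2 := by omega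
  rcases h3 with h3 | h3 | h3
  · rw [h3]; exact h1.1.1
  · rw [h3]; exact h1.1.2
  · rw [h3]; exact h1.2

theorem XM_inv : XM⁻¹ = wordG [0] := by
  have h : wordG ([0] ++ [0]) = wordG [] := M24Norm.wordG_eq (by decide +kernel)
  rw [M24Norm.wordG_append] at h
  have h0 : wordG [0] = XM := mul_one _
  rw [h0] at h ⊢
  exact inv_eq_of_mul_eq_one_left h

theorem duad_conj (m : M24) : ∀ l ∈ duads, ∃ l' ∈ duads, phi m * V l * (phi m)⁻¹ = V l' := by
  have hm : m ∈ Subgroup.closure ({XM, YM} : Set M24) := by rw [closure_XYM]; exact Subgroup.mem_top m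
  have key : ∀ i < 3, ∀ l ∈ duads, ∃ l' ∈ duads, phi (wordG [i]) * V l * (phi (wordG [i]))⁻¹ = V l' :=
    fun i hi l hl => ⟨_, mem_duads_mat hl i hi, conj_V (isMat_word [i]) l⟩
  have h0 : wordG [0] = XM := mul_one _
  have h1 : wordG [1] = YM := mul_one _
  have h2 : wordG [2] = YM⁻¹ := mul_one _
  refine Subgroup.closure_induction'' (p := fun m _ => ∀ l ∈ duads, ∃ l' ∈ duads, phi m * V l * (phi m)⁻¹ = V l')
    ?_ ?_ ?_ ?_ hm
  · intro g hg
    rcases hg with hg | hg
    · rw [hg, ← h0]; exact key 0 (by norm_num)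
    · rw [Set.mem_singleton_iff.1 hg, ← h1]; exact key 1 (by norm_num)
  · intro g hg
    rcases hg with hg | hg
    · rw [hg, XM_inv]; exact key 0 (by norm_num)
    · rw [Set.mem_singleton_iff.1 hg, ← h2]; exact key 2 (by norm_num)
  · intro l hl
    exact ⟨l, hl, by rw [map_one]; group⟩
  · intro a b _ _ ha hb l hl
    obtain ⟨l1, hl1, e1⟩ := hb l hl
    obtain ⟨l2, hl2, e2⟩ := ha l1 hl1
    refine ⟨l2, hl2, ?_⟩
    rw [← e2, ← e1, map_mul]
    group

theorem five_mem : 5 ∈ duads := by decide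

theorem mem_duads {l : ℕ} (hl : l < 2048) (h : IsConj d (V l)) : l ∈ duads := by
  have h1 : V l ≠ 1 := (sq_of_conj d_mem d_ne h).1
  obtain ⟨m, hm | hm⟩ := EJ_cases (V_mem l) h1
  · exfalso
    apply Cfsg.Agent.J4.Invol.not_isConj_s_d
    have h2 : IsConj s (V l) := isConj_iff.2 ⟨phi m, hm.symm⟩
    exact h2.trans h.symm
  · obtain ⟨l', hl', e⟩ := duad_conj m 5 five_mem
    rw [d_eq, e] at hm
    have hlt : l' < 2048 := by
      have := duads_lt
      rw [List.all_eq_true] at this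
      exact of_eq_true (Nat.blt_eq ▸ eq_true (this l' hl'))
    rw [V_inj hl hlt hm]
    exact hl'

/-! ### elements of class 2A -/

theorem q10_eq : getG LE 49 = s := by
  rw [show 49 = 39 + 10 by rfl, getG_LE' (by norm_num), s_eq]
  have h := evG_be 1024
  rw [show be 1024 = [49] by decide +kernel, evG_cons, evG_nil, mul_one] at h
  rw [← h, show 49 = 39 + 10 by rfl, getG_LE' (by norm_num)]

theorem S1_2A : IsConj s S1 := by
  have h := eqE (a := [2, 19]) (b := [49, 2]) (by decide +kernel)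
  rw [evG_cons, evG_cons, evG_nil, mul_one, evG_cons, evG_cons, evG_nil, mul_one, S1_eq, q10_eq] at h
  refine IsConj.symm (isConj_iff.2 ⟨getG LE 2, ?_⟩)
  rw [h, mul_inv_cancel_right]

theorem X5_2A : IsConj s (V 5 * phi XM) := by
  have h := eqE (a := [0, 39, 41, 52]) (b := [49, 0]) (by decide +kernel)
  have h5 : evG LE [39, 41] = V 5 := evG_be 5
  have e : evG LE [0, 39, 41, 52] = getG LE 0 * (V 5 * phi XM) := by
    rw [← h5, phi_X, ← x_eq]
    simp only [evG_cons, evG_nil, mul_one, mul_assoc]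
  rw [e, evG_cons, evG_cons, evG_nil, mul_one, q10_eq] at h
  refine IsConj.symm (isConj_iff.2 ⟨getG LE 0, ?_⟩)
  rw [h, mul_inv_cancel_right]

theorem not_2A {t : 𝒢} (h : IsConj s t) : ¬ IsConj d t := fun h' =>
  Cfsg.Agent.J4.Invol.not_isConj_s_d (h.trans h'.symm)

/-! ### the predicate -/

/-- the predicate for the second member of the pair -/
def Pr (u : Matrix.GeneralLinearGroup (Fin 112) (ZMod 2)) : Prop := ∀ t₁ t₂ : 𝒢, rho t₂ = u → t₁ ∈ EJ →
  t₁ * t₂ = t₂ * t₁ → IsConj d t₁ → IsConj d t₂ → IsConj d (t₁ * t₂) → PP t₁ t₂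

theorem conj_mem_N {g e : 𝒢} (hg : g ∈ Subgroup.normalizer (EJ : Set 𝒢)) (he : e ∈ EJ) : g * e * g⁻¹ ∈ EJ :=
  (Subgroup.mem_normalizer_iff.1 hg e).1 he

theorem isConj_conj {a b g : 𝒢} (h : IsConj a b) : IsConj a (g * b * g⁻¹) := h.trans (isConj_iff.2 ⟨g, rfl⟩)

theorem Pr_conj {g : 𝒢} (hg : g ∈ Subgroup.normalizer (EJ : Set 𝒢)) {u : Matrix.GeneralLinearGroup (Fin 112) (ZMod 2)}
    (h : Pr (rho g * u * (rho g)⁻¹)) : Pr u := by
  intro t₁ t₂ h2 h1 hc c1 c2 c12
  apply PP.conj g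
  apply h
  · rw [map_mul, map_mul, map_inv, h2]
  · exact conj_mem_N hg h1
  · have e1 : g * t₁ * g⁻¹ * (g * t₂ * g⁻¹) = g * (t₁ * t₂) * g⁻¹ := by group
    have e2 : g * t₂ * g⁻¹ * (g * t₁ * g⁻¹) = g * (t₂ * t₁) * g⁻¹ := by group
    rw [e1, e2, hc]
  · exact isConj_conj c1
  · exact isConj_conj c2
  · have e1 : g * t₁ * g⁻¹ * (g * t₂ * g⁻¹) = g * (t₁ * t₂) * g⁻¹ := by group
    rw [e1]
    exact isConj_conj c12

theorem exists_V {e : 𝒢} (he : e ∈ EJ) : ∃ v < 2048, e = V v := by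
  obtain ⟨v, hv, hev⟩ := exists_beta hyp.sq hyp.comm ((Cfsg.Agent.J4.Invol.mem_EJ_iff rho_injective e).1 he)
  rw [qs_length] at hv
  exact ⟨v, hv, rho_injective (by rw [rho_V]; exact hev)⟩

theorem repsE1 (v : ℕ) (hv : v ∈ [0, 34, 517, 551, 1047, 1077, 1554, 1584]) : Pr (beta qs v * psi (el P1)) := by
  intro t₁ t₂ h2 h1 hc c1 c2 c12
  have e2 : t₂ = V v * S1 := rho_injective (by rw [h2, map_mul, rho_V]; rfl)
  obtain ⟨l, hl, e1⟩ := exists_V h1
  rw [e1] at c1
  have hd := mem_duads hl c1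
  have hfix : lin A1 l = l := by
    apply V_inj (lin_lt (by decide) l) hl
    rw [← S1_V]
    rw [e1, e2] at hc
    have e3 : V v * (V l * S1) = V v * (S1 * V l) := by
      calc V v * (V l * S1) = V v * V l * S1 := by group
        _ = V l * V v * S1 := by rw [V_comm]
        _ = V l * (V v * S1) := by group
        _ = V v * S1 * V l := hc
        _ = V v * (S1 * V l) := by group
    have e4 := mul_left_cancel e3
    rw [← e4, mul_inv_cancel_right]
  have hfd : l ∈ fd := by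
    have h := fd_ok
    rw [List.all_eq_true] at h
    have h3 := h l hd
    rw [hfix, Nat.beq_refl, Bool.not_true, Bool.false_or, List.contains_iff_mem] at h3
    exact h3
  have hcov := cover_ok
  unfold cover at hcov
  rw [List.all_eq_true] at hcov
  have h4 := hcov v hv
  rw [Bool.or_eq_true, Nat.beq_eq] at h4
  rcases h4 with h4 | h4
  · exfalso
    apply not_2A S1_2A
    rw [e2, h4, V_zero, one_mul] at c2
    exact c2
  · rw [List.all_eq_true] at h4
    have h5 := h4 l hfd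
    rw [Bool.or_eq_true, Nat.beq_eq, List.contains_iff_mem] at h5
    rcases h5 with h5 | h5
    · exfalso
      obtain ⟨w, hw⟩ := can_spec (l ^^^ v)
      rw [h5] at hw
      have e5 : V w * (t₁ * t₂) * (V w)⁻¹ = S1 := by
        have e6 : t₁ * t₂ = V (l ^^^ v) * S1 := by rw [e1, e2, V_xor]; group
        rw [e6, V_shift, ← hw, V_zero, one_mul]
      apply not_2A S1_2A
      rw [← e5]
      exact isConj_conj c12
    · rw [e1, e2]
      exact PP_allp (l, v) h5

/-- the fixed duads of `XM` -/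
def fX : List (ℕ × ℕ) := [(5, 0), (15, 2), (17, 1), (27, 3), (325, 64), (337, 65), (495, 98), (507, 99), (1541, 512),
  (1553, 513), (1701, 544), (1713, 545)]

theorem fX_ok : (duads.all fun l => !(Nat.beq (lin Ax l) l) ||
    fX.any fun p => Nat.beq p.1 l && Nat.beq l (5 ^^^ (p.2 ^^^ lin Ax p.2))) = true := by decide +kernel

theorem X_V (v : ℕ) : phi XM * V v * (phi XM)⁻¹ = V (lin Ax v) := by
  apply rho_injective
  rw [map_mul, map_mul, map_inv, rho_V, rho_V]
  exact hyp.actX v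

theorem X_V' (v : ℕ) : phi XM * V v = V (lin Ax v) * phi XM := by
  rw [← X_V]; group

theorem X_shift (v a : ℕ) : V v * (V a * phi XM) * (V v)⁻¹ = V (a ^^^ (v ^^^ lin Ax v)) * phi XM := by
  rw [V_inv, V_xor, V_xor]
  calc V v * (V a * phi XM) * V v = V v * V a * (phi XM * V v) := by group
    _ = V v * V a * (V (lin Ax v) * phi XM) := by rw [X_V']
    _ = (V v * V a) * V (lin Ax v) * phi XM := by group
    _ = (V a * V v) * V (lin Ax v) * phi XM := by rw [V_comm v a]
    _ = V a * (V v * V (lin Ax v)) * phi XM := by group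

theorem repsE2 (v : ℕ) (hv : v ∈ [0, 5]) : Pr (beta qs v * psi XM) := by
  intro t₁ t₂ h2 h1 hc c1 c2 c12
  have e2 : t₂ = V v * phi XM := rho_injective (by rw [h2, map_mul, rho_V]; rfl)
  exfalso
  obtain rfl | rfl : v = 0 ∨ v = 5 := by simpa using hv
  · rw [V_zero, one_mul] at e2
    obtain ⟨l, hl, e1⟩ := exists_V h1
    rw [e1] at c1
    have hd := mem_duads hl c1
    have hfix : lin Ax l = l := by
      apply V_inj (lin_lt (by decide) l) hl
      rw [← X_V]
      rw [e1, e2] at hc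
      rw [← hc, mul_inv_cancel_right]
    have h := fX_ok
    rw [List.all_eq_true] at h
    have h3 := h l hd
    rw [hfix, Nat.beq_refl, Bool.not_true, Bool.false_or, List.any_eq_true] at h3
    obtain ⟨p, -, h4⟩ := h3
    rw [Bool.and_eq_true, Nat.beq_eq, Nat.beq_eq] at h4
    apply not_2A X5_2A
    have e5 : V 5 * phi XM = V p.2 * (t₁ * t₂) * (V p.2)⁻¹ := by
      rw [e1, e2, X_shift]
      congr 2
      rw [h4.2]
      rw [Nat.xor_assoc, Nat.xor_self, Nat.xor_zero]
    rw [e5]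
    exact isConj_conj c12
  · apply not_2A X5_2A
    rw [← e2]
    exact c2

theorem pair_cases {t₁ t₂ : 𝒢} (h1 : t₁ ∈ EJ) (h2 : t₂ ∈ Subgroup.normalizer (EJ : Set 𝒢)) (h2' : t₂ ∉ EJ)
    (hc : t₁ * t₂ = t₂ * t₁) (c1 : IsConj d t₁) (c2 : IsConj d t₂) (c12 : IsConj d (t₁ * t₂)) : PP t₁ t₂ := by
  have hfin := Cfsg.Agent.H858.VK.finite_J4
  rw [NEJ_eq] at h2
  obtain ⟨e, he, k, hek⟩ := Cfsg.Agent.H858.VK.mem_B.1 h2
  have hk : k ≠ 1 := by
    rintro rfl
    apply h2'
    rw [hek, map_one, mul_one]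
    exact he
  obtain ⟨v, hv, hev⟩ := exists_V he
  have hr : rho t₂ = beta qs v * psi k := by
    rw [hek, map_mul, hev, rho_V]; rfl
  have hsq : beta qs v * psi k * (beta qs v * psi k) = 1 := by
    rw [← hr, ← map_mul, (sq_of_conj d_mem d_ne c2).2, map_one]
  have main := Cfsg.Agent.H541.JM.F13.pred_invol hyp Pr
    (fun r u h => Pr_conj (g := V r) (Subgroup.le_normalizer (V_mem r)) (by rw [rho_V]; exact h))
    (fun ν u h => Pr_conj (g := phi ν) (phi_mem ν) h) repsE1 repsE2 v hv k hk hsq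
  exact main t₁ t₂ hr h1 hc c1 c2 c12

end Cfsg.Agent.H265.JM.EQ
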