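import Cfsg.Agent.H911.SLTwoGen
import Cfsg.Agent.LieClassical.FieldTransfer
import Cfsg.Agent.ClassicalGeometry.PSL2Basic

/-!
# Generators of `PSL₂(23)` (helper265)
-/

set_option autoImplicit false

namespace Cfsg.Agent.H265.JM.PslGens

open Matrix Cfsg.Agent.H911.SLTwo

section gen

variable {p : ℕ} [Fact p.Prime]

theorem gen {S : Subgroup (SpecialLinearGroup (Fin 2) (ZMod p))} (hu : U (1 : ZMod p) ∈ S)
    (hw : (ww : SpecialLinearGroup (Fin 2) (ZMod p)) ∈ S) : S = ⊤ := by
  have hU : ∀ x : ZMod p, U x ∈ S := by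
    intro x
    have h1 : U x = (U (1 : ZMod p)) ^ x.val := by
      rw [U_pow, mul_one, ZMod.natCast_val, ZMod.cast_id]
    rw [h1]
    exact pow_mem hu _
  have hLo : ∀ x : ZMod p, Lo x ∈ S := by
    intro x
    have h1 : Lo x = ww⁻¹ * U (-x) * ww := by
      apply ext' <;> simp only [m00, m01, m10, m11, i00, i01, i10, i11, U00, U01, U10, U11, Lo00, Lo01, Lo10, Lo11,
        ww00, ww01, ww10, ww11] <;> ring
    rw [h1]
    exact mul_mem (mul_mem (inv_mem hw) (hU _)) hw
  have key : ∀ g : SpecialLinearGroup (Fin 2) (ZMod p), g.1 1 0 ≠ 0 → g ∈ S := by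
    intro g hg
    have hdet := det_eq g
    have h1 : g = U ((g.1 0 0 - 1) / g.1 1 0) * Lo (g.1 1 0) * U ((g.1 1 1 - 1) / g.1 1 0) := by
      apply ext' <;> simp only [m00, m01, m10, m11, U00, U01, U10, U11, Lo00, Lo01, Lo10, Lo11]
      · field_simp
        ring
      · field_simp
        linear_combination (-1 : ZMod p) * hdet
      · ring
      · field_simp
        ring
    rw [h1]
    exact mul_mem (mul_mem (hU _) (hLo _)) (hU _)
  rw [eq_top_iff]
  rintro g -
  by_cases h10 : g.1 1 0 = 0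
  · have hdet := det_eq g
    have h11 : g.1 1 1 ≠ 0 := by
      intro h
      rw [h10, h, mul_zero, mul_zero, sub_zero] at hdet
      exact zero_ne_one hdet
    have h1 : g * Lo 1 ∈ S := by
      apply key
      rw [m10, Lo00, Lo10, h10]
      simpa using h11
    have h2 := mul_mem h1 (inv_mem (hLo 1))
    rwa [mul_inv_cancel_right] at h2
  · exact key g h10

end gen

instance fact23 : Fact (Nat.Prime 23) := ⟨by norm_num⟩

abbrev SS := SpecialLinearGroup (Fin 2) (ZMod 23)
abbrev TT := ProjectiveSpecialLinearGroup (Fin 2) (ZMod 23)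

/-- the projection -/
def pr : SS →* TT := QuotientGroup.mk' _

theorem pr_surjective : Function.Surjective pr := QuotientGroup.mk'_surjective _

theorem pr_neg_one : pr (-1) = 1 := by
  rw [pr, QuotientGroup.mk'_apply, QuotientGroup.eq_one_iff, Matrix.SpecialLinearGroup.mem_center_iff]
  refine ⟨-1, by decide, ?_⟩
  ext i j
  simp [Matrix.scalar_apply, Matrix.diagonal_apply, Matrix.one_apply]
  split <;> simp

/-- the unit 4 -/
def four : (ZMod 23)ˣ := ⟨4, 6, by decide, by decide⟩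

theorem pr_ne {g : SS} (h1 : g.1 0 1 ≠ 0) : pr g ≠ 1 := by
  intro h
  rw [pr, QuotientGroup.mk'_apply, QuotientGroup.eq_one_iff, Matrix.SpecialLinearGroup.mem_center_iff] at h
  obtain ⟨r, -, hr⟩ := h
  apply h1
  rw [← hr]
  simp

/-- **generators of `PSL₂(23)`** -/
theorem exists_gens : ∃ u t w : TT, u ≠ 1 ∧ u ^ 23 = 1 ∧ t * u * t⁻¹ = u ^ 16 ∧ w * w = 1 ∧
    w * t * w⁻¹ = t⁻¹ ∧ (u * w) ^ 3 = 1 ∧ Subgroup.closure {u, t, w} = ⊤ := by
  refine ⟨pr (U 1), pr (hh four), pr ww, ?_, ?_, ?_, ?_, ?_, ?_, ?_⟩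
  · apply pr_ne
    rw [U01]
    exact one_ne_zero
  · rw [← map_pow, U_pow]
    have : ((23 : ℕ) : ZMod 23) * 1 = 0 := by decide
    rw [this, U_zero, map_one]
  · rw [← map_mul, ← map_inv, ← map_mul, ← map_pow, hU, U_pow]
    congr 1
  · rw [← map_mul]
    have h1 : (ww : SS) * ww = -1 := by
      apply ext' <;> decide
    rw [h1, pr_neg_one]
  · rw [← map_mul, ← map_inv, ← map_inv, ← map_mul]
    congr 1
    apply ext' <;> decide
  · rw [← map_mul, ← map_pow]
    have h1 : ((U 1 : SS) * ww) ^ 3 = 1 := by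
      rw [pow_succ, pow_two]
      apply ext' <;> decide
    rw [h1, map_one]
  · have h1 : Subgroup.comap pr (Subgroup.closure {pr (U 1), pr (hh four), pr ww}) = ⊤ := by
      apply gen
      · exact Subgroup.subset_closure (by simp)
      · exact Subgroup.subset_closure (by simp)
    rw [eq_top_iff]
    rintro x -
    obtain ⟨g, rfl⟩ := pr_surjective x
    have : g ∈ Subgroup.comap pr (Subgroup.closure {pr (U 1), pr (hh four), pr ww}) := by
      rw [h1]; exact Subgroup.mem_top _
    exact this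

theorem card_TT : Nat.card TT = 6072 := by
  have h := Cfsg.Agent.ClassicalGeometry.PSL2Basic.card_PSL2_odd (F := ZMod 23) (by rw [ZMod.card]; decide)
  rw [ZMod.card] at h
  have h2 : Nat.card TT * 2 = 6072 * 2 := h.trans (by norm_num)
  exact Nat.eq_of_mul_eq_mul_right two_pos h2

/-- transport from a field with 23 elements -/
theorem exists_equiv {F : Type*} [Field F] [Fintype F] (h : Fintype.card F = 23) :
    Nonempty (TT ≃* ProjectiveSpecialLinearGroup (Fin 2) F) :=
  ⟨LieClassical.FieldTransfer.pslCongr (ZMod.ringEquivOfPrime F (by norm_num) h)⟩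

/-- **generators of a group isomorphic to `PSL₂(23)`** -/
theorem exists_gens' {S : Type*} [Group S] {F : Type*} [Field F] [Fintype F] (h : Fintype.card F = 23)
    (e : S ≃* ProjectiveSpecialLinearGroup (Fin 2) F) : Nat.card S = 6072 ∧
    ∃ u t w : S, u ≠ 1 ∧ u ^ 23 = 1 ∧ t * u * t⁻¹ = u ^ 16 ∧ w * w = 1 ∧
    w * t * w⁻¹ = t⁻¹ ∧ (u * w) ^ 3 = 1 ∧ Subgroup.closure {u, t, w} = ⊤ := by
  obtain ⟨e1⟩ := exists_equiv h
  let f : TT ≃* S := e1.trans e.symm
  refine ⟨(Nat.card_congr f.toEquiv).symm.trans card_TT, ?_⟩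
  obtain ⟨u, t, w, h1, h2, h3, h4, h5, h6, h7⟩ := exists_gens
  refine ⟨f u, f t, f w, ?_, ?_, ?_, ?_, ?_, ?_, ?_⟩
  · rwa [Ne, map_eq_one_iff f f.injective]
  · rw [← map_pow, h2, map_one]
  · rw [← map_mul, ← map_inv, ← map_mul, h3, map_pow]
  · rw [← map_mul, h4, map_one]
  · rw [← map_mul, ← map_inv, ← map_mul, h5, map_inv]
  · rw [← map_mul, ← map_pow, h6, map_one]
  · have h8 : Subgroup.closure {f u, f t, f w} = (Subgroup.closure {u, t, w}).map f.toMonoidHom := by
      rw [MonoidHom.map_closure]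
      congr 1
      ext x
      simp [eq_comm]
    rw [h8, h7, Subgroup.map_top_of_surjective _ f.surjective]

end Cfsg.Agent.H265.JM.PslGens
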