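import Cfsg.Agent.H265.JM.L223Rel
import Cfsg.Agent.H265.JM.PslGens
import Cfsg.Agent.H860.JM.Defs

/-!
# S5580, Part III: one class of maximal subgroups of `J4` with socle `L₂(23)` (helper265)
-/

set_option autoImplicit false

namespace Cfsg.Agent.H265.JM.L223

open Cfsg Subgroup
open Cfsg.Agent.J4.Rep112
open Cfsg.Agent.J4.Pres
open Cfsg.Agent.H859
open Cfsg.Agent.H860.JM (NL OneCl cj)

local notation "𝒢" => Cfsg.Spor.J4

instance simple_J4 : IsSimpleGroup 𝒢 := Cfsg.Agent.S1703.result.1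

/-! ### conjugation into standard position -/

theorem dec1 : ∀ m < 23, m ≠ 0 → ∃ n < 22, 19 ^ n * m % 23 = 1 := by decide +kernel

theorem step1 {a : 𝒢} (h23 : a ^ 23 = 1) (h1 : a ≠ 1) : ∃ g : 𝒢, g * a * g⁻¹ = u := by
  classical
  obtain ⟨g, hg⟩ := SylEleven.exists_conj_mem isPGroup_zu not_dvd_zu (g := a) ⟨1, by rw [pow_one, h23]⟩
  rw [mem_zpowers_iff_mem_range_orderOf, Finset.mem_image] at hg
  obtain ⟨m, hm, hm2⟩ := hg
  rw [orderOf_u, Finset.mem_range] at hm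
  have hm0 : m ≠ 0 := by
    rintro rfl
    apply h1
    rw [pow_zero, eq_comm, mul_inv_eq_one] at hm2
    exact mul_left_cancel (hm2.trans (mul_one g).symm)
  obtain ⟨n, -, hn⟩ := dec1 m hm hm0
  refine ⟨h ^ n * g, ?_⟩
  have e : h ^ n * g * a * (h ^ n * g)⁻¹ = h ^ n * (g * a * g⁻¹) * (h ^ n)⁻¹ := by group
  rw [e, ← hm2, ← conj_pow, hp_u, ← pow_mul, u_mod (b := 1) (by rw [hn]), pow_one]

theorem step2 {t : 𝒢} (ht : t * u * t⁻¹ = u ^ 16) : ∃ n : ℕ, u ^ n * t * (u ^ n)⁻¹ = H := by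
  have h1 : (H⁻¹ * t) * u = u * (H⁻¹ * t) := by
    rw [mul_inv_eq_iff_eq_mul] at ht
    rw [mul_assoc, ht, ← mul_assoc, ← mul_assoc]
    congr 1
    rw [inv_mul_eq_iff_eq_mul, ← mul_assoc, H_u, mul_inv_cancel_right]
  obtain ⟨j, hj⟩ := cent_u h1
  have h2 : t = u ^ (16 * j) * H := by
    rw [inv_mul_eq_iff_eq_mul] at hj
    rw [hj, H_up]
  refine ⟨21 * j, ?_⟩
  rw [mul_inv_eq_iff_eq_mul, H_up, h2, ← mul_assoc, ← pow_add]
  congr 1
  apply u_mod
  omega

theorem step3 {b : 𝒢} (hb : b * b = 1) (hbH : b * H * b⁻¹ = H⁻¹) (h3 : (u * b) ^ 3 = 1) :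
    b = w ∨ b = v ∨ b = z * v * z⁻¹ := by
  have hbi : b⁻¹ = b := inv_eq_of_mul_eq_one_right hb
  have h1 : (w * b) * H = H * (w * b) := by
    rw [mul_inv_eq_iff_eq_mul] at hbH
    have h2 := w_H
    rw [mul_inv_eq_iff_eq_mul] at h2
    have h4 : w * H⁻¹ = H * w := by
      rw [mul_inv_eq_iff_eq_mul, mul_assoc, h2, ← mul_assoc, mul_inv_cancel, one_mul]
    rw [mul_assoc, hbH, ← mul_assoc, h4, mul_assoc]
  obtain ⟨i, j, e, hi, hj, he, hc⟩ := cent_H h1
  have hb2 : b = w * (H ^ i * (k ^ j * z ^ e)) := by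
    rw [← hc, ← mul_assoc, w_w, one_mul]
  have hx : exc i j e = true := by
    by_contra hx
    rw [Bool.not_eq_true] at hx
    apply ne_one hi hj he hx
    rw [← h3, hb2]
    simp only [mul_assoc]
  have hx2 : (i = 0 ∧ j = 0 ∧ e = 0) ∨ (i = 0 ∧ j = 1 ∧ e = 1) ∨ (i = 0 ∧ j = 10 ∧ e = 1) := by
    unfold exc at hx
    simp only [Bool.and_eq_true, Bool.or_eq_true, beq_iff_eq] at hx
    omega
  rcases hx2 with ⟨rfl, rfl, rfl⟩ | ⟨rfl, rfl, rfl⟩ | ⟨rfl, rfl, rfl⟩
  · left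
    rw [hb2, pow_zero, pow_zero, pow_zero, mul_one, mul_one, mul_one]
  · right; left
    rw [hb2, pow_zero, pow_one, pow_one, one_mul, v_eq, mul_assoc]
  · right; right
    rw [hb2, pow_zero, pow_one, one_mul, v_eq]
    have h5 : k ^ 10 = k⁻¹ := eq_inv_of_mul_eq_one_left (by rw [← pow_succ, k_pow])
    have h6 : z * (w * k * z) * z⁻¹ = w * (z * k * z⁻¹) * z := by
      have h7 : z * w = w * z := w_z.symm
      calc z * (w * k * z) * z⁻¹ = z * w * k := by group
        _ = w * z * k := by rw [h7]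
        _ = w * (z * k * z⁻¹) * z := by group
    rw [h6, z_k', h5, mul_assoc]

/-- the subgroup of `PGL₂(23)` -/
def SW : Subgroup 𝒢 := closure {u, H, w}
/-- the subgroup of `M₂₄` -/
def SV : Subgroup 𝒢 := closure {u, H, v}

theorem map_cl (g a b c : 𝒢) : cj g (closure {a, b, c}) = closure {g * a * g⁻¹, g * b * g⁻¹, g * c * g⁻¹} := by
  change (closure {a, b, c}).map (MulAut.conj g).toMonoidHom = _
  rw [MonoidHom.map_closure]
  congr 1
  ext x
  simp [eq_comm, MulAut.conj_apply]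

theorem cj_cj (g g' : 𝒢) (S : Subgroup 𝒢) : cj g (cj g' S) = cj (g * g') S := by
  ext x
  simp only [Subgroup.mem_map, MulEquiv.toMonoidHom_eq_coe, MonoidHom.coe_coe, MulAut.conj_apply]
  constructor
  · rintro ⟨y, ⟨s, hs, rfl⟩, rfl⟩
    exact ⟨s, hs, by group⟩
  · rintro ⟨s, hs, rfl⟩
    exact ⟨_, ⟨s, hs, rfl⟩, by group⟩

theorem cj_one (S : Subgroup 𝒢) : cj 1 S = S := by
  ext x
  simp only [Subgroup.mem_map, MulEquiv.toMonoidHom_eq_coe, MonoidHom.coe_coe, MulAut.conj_apply]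
  constructor
  · rintro ⟨s, hs, rfl⟩
    simpa using hs
  · intro hx
    exact ⟨x, hx, by group⟩

/-- a subgroup `PSL₂(23)` is conjugate to one of two subgroups -/
theorem exists_cj {S : Subgroup 𝒢} {F : Type} [Field F] [Fintype F] (hF : Fintype.card F = 23)
    (e : S ≃* Matrix.ProjectiveSpecialLinearGroup (Fin 2) F) : ∃ g : 𝒢, cj g S = SW ∨ cj g S = SV := by
  obtain ⟨-, a, t, b, h1, h2, h3, h4, h5, h6, h7⟩ := PslGens.exists_gens' hF e
  have hS : S = closure {(a : 𝒢), (t : 𝒢), (b : 𝒢)} := by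
    have h8 : (closure {a, t, b}).map S.subtype = S := by
      rw [h7, ← MonoidHom.range_eq_map, Subgroup.range_subtype]
    rw [MonoidHom.map_closure] at h8
    refine h8.symm.trans ?_
    congr 1
    ext x
    simp [eq_comm]
  obtain ⟨g1, hg1⟩ := step1 (a := (a : 𝒢)) (by rw [← coe_pow, h2, coe_one]) (by
    intro h
    apply h1
    exact Subtype.ext h)
  have h3' : (t : 𝒢) * a * (t : 𝒢)⁻¹ = (a : 𝒢) ^ 16 := congrArg Subtype.val h3
  have h4' : (b : 𝒢) * b = 1 := congrArg Subtype.val h4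
  have h5' : (b : 𝒢) * t * (b : 𝒢)⁻¹ = (t : 𝒢)⁻¹ := congrArg Subtype.val h5
  have h6' : ((a : 𝒢) * b) ^ 3 = 1 := congrArg Subtype.val h6
  have ht1 : (g1 * t * g1⁻¹) * u * (g1 * t * g1⁻¹)⁻¹ = u ^ 16 := by
    rw [← hg1, conj_pow, ← h3']; group
  obtain ⟨n, hn⟩ := step2 ht1
  set g := u ^ n * g1 with hg
  have e1 : g * a * g⁻¹ = u := by
    have : g * a * g⁻¹ = u ^ n * (g1 * a * g1⁻¹) * (u ^ n)⁻¹ := by rw [hg]; group
    rw [this, hg1]; group
  have e2 : g * t * g⁻¹ = H := by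
    have : g * t * g⁻¹ = u ^ n * (g1 * t * g1⁻¹) * (u ^ n)⁻¹ := by rw [hg]; group
    rw [this, hn]
  have e3 := step3 (b := g * b * g⁻¹)
    (by rw [show g * (b : 𝒢) * g⁻¹ * (g * b * g⁻¹) = g * (b * b) * g⁻¹ by group, h4']; group)
    (by
      rw [← e2, show g * (b : 𝒢) * g⁻¹ * (g * t * g⁻¹) * (g * b * g⁻¹)⁻¹ = g * (b * t * (b : 𝒢)⁻¹) * g⁻¹ by group, h5']
      group)
    (by
      rw [← e1, show g * (a : 𝒢) * g⁻¹ * (g * b * g⁻¹) = g * (a * b) * g⁻¹ by group, conj_pow, h6']; group)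
  rcases e3 with h8 | h8 | h8
  · refine ⟨g, Or.inl ?_⟩
    rw [hS, map_cl, e1, e2, h8, SW]
  · refine ⟨g, Or.inr ?_⟩
    rw [hS, map_cl, e1, e2, h8, SV]
  · refine ⟨z * g, Or.inr ?_⟩
    rw [hS, ← cj_cj, map_cl, e1, e2, h8, map_cl, SV, z_u]
    have e4 : z * H * z⁻¹ = H := by rw [z_H, mul_inv_cancel_right]
    have e5 : z * (z * v * z⁻¹) * z⁻¹ = v := by
      rw [z_inv, show z * (z * v * z) * z = (z * z) * v * (z * z) by group, z_z]; group
    rw [e4, e5]
    apply le_antisymm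
    · rw [closure_le]
      rintro x (rfl | rfl | rfl)
      · exact inv_mem (subset_closure (by simp))
      · exact subset_closure (by simp)
      · exact subset_closure (by simp)
    · rw [closure_le]
      rintro x (rfl | rfl | rfl)
      · rw [← inv_inv u]
        exact inv_mem (subset_closure (by simp))
      · exact subset_closure (by simp)
      · exact subset_closure (by simp)

/-! ### the subgroup `SV` -/

theorem u_mem_SV : u ∈ SV := subset_closure (by simp)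
theorem H_mem_SV : H ∈ SV := subset_closure (by simp)
theorem v_mem_SV : v ∈ SV := subset_closure (by simp)

theorem SV_le : SV ≤ phi.range := by
  rw [SV, closure_le]
  rintro x (rfl | rfl | rfl)
  · exact u_mem
  · exact H_mem
  · exact v_mem

/-- the order of a group containing `H` and `k` -/
theorem not_k_mem {S : Subgroup 𝒢} (hS : Nat.card S = 6072) (hH : H ∈ S) (hk : k ∈ S) : False := by
  have hHk : ∀ a ∈ zpowers H, ∀ b ∈ zpowers k, Commute a b := by
    rintro _ ⟨m, rfl⟩ _ ⟨n, rfl⟩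
    exact ((show Commute H k from k_H.symm).zpow_left m).zpow_right n
  let f : zpowers H × zpowers k →* S :=
    { toFun := fun p => ⟨p.1 * p.2, mul_mem ((zpowers_le.2 hH) p.1.2) ((zpowers_le.2 hk) p.2.2)⟩
      map_one' := by ext; simp
      map_mul' := by
        rintro ⟨a, b⟩ ⟨c, d⟩
        ext
        simp only [Prod.fst_mul, Prod.snd_mul, coe_mul]
        have h1 := (hHk c c.2 b b.2).eq
        calc (a : 𝒢) * c * (b * d) = a * (c * b) * d := by group
          _ = a * (b * c) * d := by rw [h1]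
          _ = a * b * (c * d) := by group }
  have hf : Function.Injective f := by
    rw [injective_iff_map_eq_one]
    rintro ⟨a, b⟩ hab
    have h1 : (a : 𝒢) * b = 1 := congrArg Subtype.val hab
    have h2 : (b : 𝒢) = (a : 𝒢)⁻¹ := eq_inv_of_mul_eq_one_right h1
    have h3 : (b : 𝒢) = 1 := disj b.2 (by rw [h2]; exact inv_mem a.2)
    have h4 : (a : 𝒢) = 1 := by rw [h3, mul_one] at h1; exact h1
    exact Prod.ext (Subtype.ext h4) (Subtype.ext h3)
  have h1 := Subgroup.card_dvd_of_injective f hf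
  rw [Nat.card_prod, Nat.card_zpowers, Nat.card_zpowers, orderOf_H, orderOf_k, hS] at h1
  revert h1
  norm_num

theorem dec2 : ∀ m < 23, m ≠ 0 → ∃ n < 22, 19 ^ n % 23 = m := by decide +kernel

/-- the normalizer of `SV` is contained in `M₂₄` -/
theorem normalizer_SV (hS : Nat.card SV = 6072) : normalizer (SV : Set 𝒢) ≤ phi.range := by
  classical
  intro n hn
  -- the Frattini argument
  have hu1 : n * u * n⁻¹ ∈ SV := (mem_normalizer_iff.1 hn u).1 u_mem_SV
  let U' : SV := ⟨u, u_mem_SV⟩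
  have hU' : Nat.card (zpowers U') = 23 := by
    rw [Nat.card_zpowers, ← orderOf_u, ← Subgroup.orderOf_coe]
  have hi : ¬ 23 ∣ (zpowers U').index :=
    Cfsg.Agent.H858.NormC.not_dvd_index hU' (by rw [hS]; norm_num)
  obtain ⟨s, hs⟩ := SylEleven.exists_conj_mem (Cfsg.Agent.H858.NormC.isPGroup_of_card hU') hi
    (g := (⟨n * u * n⁻¹, hu1⟩ : SV)) ⟨1, by
      ext
      rw [pow_one, coe_pow, conj_pow, u_pow]
      simp⟩
  rw [mem_zpowers_iff_mem_range_orderOf, Finset.mem_image] at hs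
  obtain ⟨m, hm, hm2⟩ := hs
  have hU2 : orderOf U' = 23 := by rw [← Nat.card_zpowers, hU']
  rw [hU2, Finset.mem_range] at hm
  have hm3 : u ^ m = s * (n * u * n⁻¹) * (s : 𝒢)⁻¹ := congrArg Subtype.val hm2
  have hm0 : m ≠ 0 := by
    rintro rfl
    apply u_ne
    rw [pow_zero] at hm3
    have : u = (s * n)⁻¹ * (s * (n * u * n⁻¹) * (s : 𝒢)⁻¹) * (s * n) := by group
    rw [this, ← hm3]; group
  obtain ⟨b, -, hb⟩ := dec2 m hm hm0
  -- `h ^ b` has the same action
  have h1 : (h ^ b)⁻¹ * (s * n) * u = u * ((h ^ b)⁻¹ * (s * n)) := by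
    have h2 := hp_u b
    rw [u_mod (b := m) (by rw [hb, Nat.mod_eq_of_lt hm]), hm3] at h2
    have h3 : h ^ b * u * (h ^ b)⁻¹ = (s * n) * u * (s * n)⁻¹ := by rw [h2]; group
    calc (h ^ b)⁻¹ * (s * n) * u = (h ^ b)⁻¹ * ((s * n) * u * (s * n)⁻¹) * (s * n) := by group
      _ = (h ^ b)⁻¹ * (h ^ b * u * (h ^ b)⁻¹) * (s * n) := by rw [h3]
      _ = u * ((h ^ b)⁻¹ * (s * n)) := by group
  obtain ⟨c, hc⟩ := cent_u h1
  have hsn : (s : 𝒢) * n = h ^ b * u ^ c := by rw [← hc]; group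
  have hn2 : n = (s : 𝒢)⁻¹ * (h ^ b * u ^ c) := by rw [← hsn]; group
  rcases Nat.even_or_odd' b with ⟨b', hb' | hb'⟩
  · apply SV_le
    rw [hn2, hb', pow_mul, ← H_eq']
    exact mul_mem (inv_mem s.2) (mul_mem (pow_mem H_mem_SV _) (pow_mem u_mem_SV _))
  · exfalso
    have hle : SV ≤ normalizer (SV : Set 𝒢) := le_normalizer
    have hh : h ∈ normalizer (SV : Set 𝒢) := by
      have h2 : h ^ b ∈ normalizer (SV : Set 𝒢) := by
        have : h ^ b = s * n * (u ^ c)⁻¹ := by rw [hsn]; group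
        rw [this]
        exact mul_mem (mul_mem (hle s.2) hn) (inv_mem (pow_mem (hle u_mem_SV) _))
      have h3 : h = (H ^ b')⁻¹ * h ^ b := by
        rw [hb', pow_succ, pow_mul, ← H_eq']; group
      rw [h3]
      exact mul_mem (inv_mem (pow_mem (hle H_mem_SV) _)) h2
    have hz : z ∈ normalizer (SV : Set 𝒢) := by rw [z_eq]; exact pow_mem hh _
    have h4 : z * v * z⁻¹ ∈ SV := (mem_normalizer_iff.1 hz v).1 v_mem_SV
    have h5 : v * (z * v * z⁻¹) = k * k := by
      rw [v_eq]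
      calc w * k * z * (z * (w * k * z) * z⁻¹) = w * k * (z * z) * (w * k) := by group
        _ = (w * k) * (w * k) := by rw [z_z, mul_one]
        _ = (k * w) * (w * k) := by rw [w_k]
        _ = k * (w * w) * k := by group
        _ = k * k := by rw [w_w, mul_one]
    have h6 : k * k ∈ SV := by rw [← h5]; exact mul_mem v_mem_SV h4
    have h7 : k ∈ SV := by
      have h8 : k = (k * k) ^ 6 := by
        rw [← pow_two, ← pow_mul, show 2 * 6 = 11 + 1 from rfl, pow_succ, k_pow, one_mul]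
      rw [h8]
      exact pow_mem h6 6
    exact not_k_mem hS H_mem_SV h7

/-! ### maximal subgroups -/

theorem normalizer_ne_top {S : Subgroup 𝒢} (h1 : S ≠ ⊥) (h2 : S ≠ ⊤) : normalizer (S : Set 𝒢) ≠ ⊤ := by
  intro h
  have hn : S.Normal := normalizer_eq_top_iff.1 h
  rcases hn.eq_bot_or_eq_top with h3 | h3
  · exact h1 h3
  · exact h2 h3

theorem ne_bot {M S : Subgroup 𝒢} (hN : NL M S) : S ≠ ⊥ := by
  intro h
  apply hN.nab
  subst h
  exact ⟨⟨fun a b => Subsingleton.elim _ _⟩⟩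

theorem ne_top {M S : Subgroup 𝒢} (hN : NL M S) : S ≠ ⊤ := by
  intro h
  exact hN.coatom.1 (top_le_iff.1 (h ▸ hN.le))

theorem eq_normalizer {M S : Subgroup 𝒢} (hN : NL M S) : M = normalizer (S : Set 𝒢) := by
  by_contra h
  exact normalizer_ne_top (ne_bot hN) (ne_top hN) (hN.coatom.2 _ (lt_of_le_of_ne hN.norm h))

theorem cj_normalizer (g : 𝒢) (S : Subgroup 𝒢) : cj g (normalizer (S : Set 𝒢)) = normalizer (cj g S : Set 𝒢) :=
  Subgroup.map_equiv_normalizer_eq S (MulAut.conj g)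

theorem isCoatom_cj {M : Subgroup 𝒢} (hM : IsCoatom M) (g : 𝒢) : IsCoatom (cj g M) :=
  (OrderIso.isCoatom_iff (MulEquiv.mapSubgroup (MulAut.conj g)) M).2 hM

theorem EJ_ne_bot : Cfsg.Agent.J4.Invol.EJ ≠ ⊥ := by
  intro h
  have h1 := Cfsg.Agent.J4.Invol.card_EJ Cfsg.Agent.H858.VK.rho_injective
  rw [h, Subgroup.card_bot] at h1
  norm_num at h1

theorem EJ_ne_top : Cfsg.Agent.J4.Invol.EJ ≠ ⊤ := by
  intro h
  apply u_ne
  exact Cfsg.Agent.H858.VK.inf_eq_one u (by rw [h]; exact mem_top _) u_mem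

theorem not_le_range {M : Subgroup 𝒢} (hM : IsCoatom M) : ¬ M ≤ phi.range := by
  intro h
  have h1 : M ≤ normalizer (Cfsg.Agent.J4.Invol.EJ : Set 𝒢) := h.trans Cfsg.Agent.H858.VK.phi_norm
  have h2 : M = normalizer (Cfsg.Agent.J4.Invol.EJ : Set 𝒢) := by
    by_contra h3
    exact normalizer_ne_top EJ_ne_bot EJ_ne_top (hM.2 _ (lt_of_le_of_ne h1 h3))
  apply EJ_ne_bot
  rw [eq_bot_iff]
  intro e he
  rw [mem_bot]
  apply Cfsg.Agent.H858.VK.inf_eq_one e he
  apply h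
  rw [h2]
  exact le_normalizer he

/-- the socle of a maximal subgroup is conjugate to `SW` -/
theorem exists_cj_SW {M S : Subgroup 𝒢} (hN : NL M S) {F : Type} [Field F] [Fintype F] (hF : Fintype.card F = 23)
    (e : S ≃* Matrix.ProjectiveSpecialLinearGroup (Fin 2) F) : ∃ g : 𝒢, cj g S = SW := by
  obtain ⟨g, hg | hg⟩ := exists_cj hF e
  · exact ⟨g, hg⟩
  · exfalso
    have h1 : cj g M = normalizer (SV : Set 𝒢) := by
      rw [eq_normalizer hN, cj_normalizer, hg]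
    have h2 := isCoatom_cj hN.coatom g
    have h3 : Nat.card SV = 6072 := by
      rw [← hg, ← (PslGens.exists_gens' hF e).1]
      exact (Nat.card_congr (S.equivMapOfInjective (MulAut.conj g).toMonoidHom
        (MulAut.conj g).injective).toEquiv).symm
    apply not_le_range h2
    rw [h1]
    exact normalizer_SV h3

/-- **S5580, Part III, `L₂(23)`**: the maximal subgroups of `J4` with socle `L₂(23)` form one class -/
theorem one_L223 {F : Type} [Field F] [Fintype F] (h : Fintype.card F = 23) :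
    OneCl (Matrix.ProjectiveSpecialLinearGroup (Fin 2) F) := by
  rintro M S M' S' hN hN' ⟨e⟩ ⟨e'⟩
  obtain ⟨g, hg⟩ := exists_cj_SW hN h e
  obtain ⟨g', hg'⟩ := exists_cj_SW hN' h e'
  refine ⟨g'⁻¹ * g, ?_⟩
  have h1 : S' = cj (g'⁻¹ * g) S := by
    rw [← cj_cj, hg, ← hg', cj_cj, inv_mul_cancel, cj_one]
  rw [eq_normalizer hN', eq_normalizer hN, cj_normalizer, ← h1]

end Cfsg.Agent.H265.JM.L223
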