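import Cfsg.Agent.H265.JM.L223Check
import Cfsg.Agent.H859.BigNum
import Cfsg.Agent.H859.ClassEleven

/-!
# The group `23:22` and the centralizer of its elements of order 11 in `J4` (helper265)
-/

set_option autoImplicit false

namespace Cfsg.Agent.H265.JM.L223

open Cfsg Subgroup
open Cfsg.Agent.Lib.F2MatGroup Cfsg.Agent.J4.Rep112
open Cfsg.Agent.H859.PGLWords (check_J4 evG_append)
open Cfsg.Agent.J4.Pres
open Cfsg.Agent.H859

local notation "𝒢" => Cfsg.Spor.J4

instance finite_J4 : Finite 𝒢 := Cfsg.Agent.H858.FixJ4.facts.1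

/-- the values of the program -/
noncomputable def L : List 𝒢 := runG slp gens
/-- order 23 -/
noncomputable def u : 𝒢 := getG L 41
/-- order 22 -/
noncomputable def h : 𝒢 := getG L 39
/-- order 11, the square of `h` -/
noncomputable def H : 𝒢 := getG L 35
/-- involution -/
noncomputable def w : 𝒢 := getG L 37
/-- involution -/
noncomputable def v : 𝒢 := getG L 36
/-- order 11, commutes with `H` -/
noncomputable def k : 𝒢 := getG L 33
/-- involution, `h ^ 11` -/
noncomputable def z : 𝒢 := getG L 34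

theorem eq_of {a b : List ℕ} (hh : (a, b) ∈ rels) : evG L a = evG L b := (check_J4 check_all).1 _ hh
theorem ne_of {a b : List ℕ} (hh : (a, b) ∈ nrels) : evG L a ≠ evG L b := (check_J4 check_all).2 _ hh

theorem ev_pow (i n : ℕ) : evG L (List.replicate n i) = getG L i ^ n :=
  Cfsg.Agent.J4.Lower.evG_replicate L i n

theorem x_eq : getG L 44 = x := rfl
theorem y_eq : getG L 45 = y := rfl
theorem y_eq' : getG L 46 = y⁻¹ := rfl

theorem u_eq : u = x * y := by
  have := eq_of (a := [41]) (b := [44, 45]) (by decide +kernel)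
  simp only [evG_cons, evG_nil, mul_one, x_eq, y_eq] at this
  exact this

theorem u_pow : u ^ 23 = 1 := by
  have := eq_of (a := List.replicate 23 41) (b := []) (by decide +kernel)
  rwa [ev_pow, evG_nil] at this

theorem h_pow : h ^ 22 = 1 := by
  have := eq_of (a := List.replicate 22 39) (b := []) (by decide +kernel)
  rwa [ev_pow, evG_nil] at this

theorem h_u : h * u = u ^ 19 * h := by
  have := eq_of (a := [39, 41]) (b := List.replicate 19 41 ++ [39]) (by decide +kernel)
  simp only [evG_append, ev_pow, evG_cons, evG_nil, mul_one] at this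
  exact this

theorem H_eq : H = h * h := by
  have := eq_of (a := [35]) (b := [39, 39]) (by decide +kernel)
  simp only [evG_cons, evG_nil, mul_one] at this
  exact this

theorem w_w : w * w = 1 := by
  have := eq_of (a := [37, 37]) (b := []) (by decide +kernel)
  simp only [evG_cons, evG_nil, mul_one] at this
  exact this

theorem w_h : w * h * w * h = 1 := by
  have := eq_of (a := [37, 39, 37, 39]) (b := []) (by decide +kernel)
  simp only [evG_cons, evG_nil, mul_one, ← mul_assoc] at this
  exact this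

theorem k_H : k * H = H * k := by
  have := eq_of (a := [33, 35]) (b := [35, 33]) (by decide +kernel)
  simp only [evG_cons, evG_nil, mul_one] at this
  exact this

theorem k_pow : k ^ 11 = 1 := by
  have := eq_of (a := List.replicate 11 33) (b := []) (by decide +kernel)
  rwa [ev_pow, evG_nil] at this

theorem z_k : z * k * z * k = 1 := by
  have := eq_of (a := [34, 33, 34, 33]) (b := []) (by decide +kernel)
  simp only [evG_cons, evG_nil, mul_one, ← mul_assoc] at this
  exact this

theorem z_eq : z = h ^ 11 := by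
  have := eq_of (a := [34]) (b := List.replicate 11 39) (by decide +kernel)
  rw [ev_pow, evG_cons, evG_nil, mul_one] at this
  exact this

theorem w_k : w * k = k * w := by
  have := eq_of (a := [37, 33]) (b := [33, 37]) (by decide +kernel)
  simp only [evG_cons, evG_nil, mul_one] at this
  exact this

theorem v_eq : v = w * k * z := by
  have := eq_of (a := [36]) (b := [37, 33, 34]) (by decide +kernel)
  simp only [evG_cons, evG_nil, mul_one, ← mul_assoc] at this
  exact this

theorem u_ne : u ≠ 1 := by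
  have := ne_of (a := [41]) (b := []) (by decide +kernel)
  simp only [evG_cons, evG_nil, mul_one] at this
  exact this

theorem k_ne : k ≠ 1 := by
  have := ne_of (a := [33]) (b := []) (by decide +kernel)
  simp only [evG_cons, evG_nil, mul_one] at this
  exact this

theorem z_ne : z ≠ 1 := by
  have := ne_of (a := [34]) (b := []) (by decide +kernel)
  simp only [evG_cons, evG_nil, mul_one] at this
  exact this

theorem H_ne : H ≠ 1 := by
  have := ne_of (a := [35]) (b := []) (by decide +kernel)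
  simp only [evG_cons, evG_nil, mul_one] at this
  exact this

/-- words in `x, y, y⁻¹` -/
theorem word_mem {l : List ℕ} (hl : ∀ i ∈ l, i = 44 ∨ i = 45 ∨ i = 46) : evG L l ∈ phi.range := by
  rw [phi_range]
  have hx : x ∈ Subgroup.closure {x, y} := Subgroup.subset_closure (by simp)
  have hy : y ∈ Subgroup.closure {x, y} := Subgroup.subset_closure (by simp)
  induction l with
  | nil => rw [evG_nil]; exact one_mem _
  | cons i l ih =>
    rw [evG_cons]
    refine mul_mem ?_ (ih fun j hj => hl j (List.mem_cons_of_mem _ hj))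
    rcases hl i List.mem_cons_self with rfl | rfl | rfl
    · rw [x_eq]; exact hx
    · rw [y_eq]; exact hy
    · rw [y_eq']; exact inv_mem hy

theorem u_mem : u ∈ phi.range := by
  rw [u_eq, phi_range]
  exact mul_mem (Subgroup.subset_closure (by simp)) (Subgroup.subset_closure (by simp))

theorem H_mem : H ∈ phi.range := by
  have := eq_of (a := [35]) (b := wH) (by decide +kernel)
  rw [evG_cons, evG_nil, mul_one] at this
  change H = _ at this
  rw [this]
  exact word_mem (by decide +kernel)

theorem v_mem : v ∈ phi.range := by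
  have := eq_of (a := [36]) (b := wv) (by decide +kernel)
  rw [evG_cons, evG_nil, mul_one] at this
  change v = _ at this
  rw [this]
  exact word_mem (by decide +kernel)

theorem A_eq {i : ℕ} (hi : i < 11) : getG L (32 - i) = u * w * H ^ i := by
  have key : ∀ i < 11, ([32 - i], [41, 37] ++ List.replicate i 35) ∈ rels := by decide +kernel
  have := eq_of (key i hi)
  simp only [evG_append, ev_pow, evG_cons, evG_nil, mul_one] at this
  exact this

theorem D_eq {j e : ℕ} (hj : j < 11) (he : e < 2) : getG L (dix j e) = k ^ j * z ^ e := by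
  have he' : e = 0 ∨ e = 1 := by omega
  rcases he' with rfl | rfl
  · have key : ∀ i < 11, ([21 - i], List.replicate i 33) ∈ rels := by decide +kernel
    have := eq_of (key j hj)
    simp only [ev_pow, evG_cons, evG_nil, mul_one] at this
    rw [pow_zero, mul_one]
    exact this
  · have key : ∀ i < 11, ([10 - i], List.replicate i 33 ++ [34]) ∈ rels := by decide +kernel
    have := eq_of (key j hj)
    simp only [evG_append, ev_pow, evG_cons, evG_nil, mul_one] at this
    rw [pow_one]
    exact this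

/-- **the computation** -/
theorem ne_one {i j e : ℕ} (hi : i < 11) (hj : j < 11) (he : e < 2) (hx : exc i j e = false) :
    (u * w * H ^ i * (k ^ j * z ^ e)) ^ 3 ≠ 1 := by
  have hm : ([32 - i, dix j e, 32 - i, dix j e, 32 - i, dix j e], ([] : List ℕ)) ∈ nrels := by
    apply List.mem_append_right
    unfold nl
    refine List.mem_map.2 ⟨(i, j, e), List.mem_filter.2 ⟨?_, by rw [hx]; rfl⟩, rfl⟩
    unfold trip
    refine List.mem_flatMap.2 ⟨i, List.mem_range.2 hi, List.mem_flatMap.2 ⟨j, List.mem_range.2 hj, ?_⟩⟩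
    exact List.mem_map.2 ⟨e, List.mem_range.2 he, rfl⟩
  have := ne_of hm
  simp only [evG_cons, evG_nil, mul_one, A_eq hi, D_eq hj he] at this
  intro h3
  apply this
  rw [← h3, pow_succ, pow_two]
  simp only [mul_assoc]

/-! ### derived relations -/

theorem z_z : z * z = 1 := by
  rw [z_eq, ← pow_add, h_pow]

theorem z_inv : z⁻¹ = z := inv_eq_of_mul_eq_one_right z_z
theorem w_inv : w⁻¹ = w := inv_eq_of_mul_eq_one_right w_w

theorem H_eq' : H = h ^ 2 := by rw [H_eq, pow_two]

theorem H_pow : H ^ 11 = 1 := by rw [H_eq', ← pow_mul, h_pow]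

theorem z_H : z * H = H * z := by rw [z_eq, H_eq', ← pow_add, ← pow_add]

theorem w_h' : w * h * w⁻¹ = h⁻¹ := by
  rw [w_inv]
  exact eq_inv_of_mul_eq_one_left w_h

theorem w_hp (n : ℕ) : w * h ^ n * w⁻¹ = (h ^ n)⁻¹ := by
  rw [← conj_pow, w_h', inv_pow]

theorem w_H : w * H * w⁻¹ = H⁻¹ := by rw [H_eq']; exact w_hp 2

theorem w_z : w * z = z * w := by
  have h1 : w * z * w⁻¹ = z⁻¹ := by rw [z_eq]; exact w_hp 11
  rw [z_inv, mul_inv_eq_iff_eq_mul] at h1
  exact h1

theorem z_k' : z * k * z⁻¹ = k⁻¹ := by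
  rw [z_inv]
  exact eq_inv_of_mul_eq_one_left z_k

theorem h_u' : h * u * h⁻¹ = u ^ 19 := by rw [h_u, mul_inv_cancel_right]

theorem hp_u (n : ℕ) : h ^ n * u * (h ^ n)⁻¹ = u ^ (19 ^ n) := by
  induction n with
  | zero => simp
  | succ n ih =>
    have e : h ^ (n + 1) * u * (h ^ (n + 1))⁻¹ = h * (h ^ n * u * (h ^ n)⁻¹) * h⁻¹ := by
      rw [pow_succ']; group
    rw [e, ih, ← conj_pow, h_u', ← pow_mul, pow_succ, mul_comm 19]

/-- exponents of `u` modulo 23 -/
theorem u_mod {a b : ℕ} (hab : a % 23 = b % 23) : u ^ a = u ^ b := by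
  rw [← Nat.div_add_mod a 23, ← Nat.div_add_mod b 23, hab, pow_add, pow_add, pow_mul, pow_mul, u_pow,
    one_pow, one_pow]

theorem H_u : H * u = u ^ 16 * H := by
  have h1 := hp_u 2
  rw [← H_eq', u_mod (b := 16) (by norm_num), mul_inv_eq_iff_eq_mul] at h1
  exact h1

theorem H_up (n : ℕ) : H * u ^ n = u ^ (16 * n) * H := by
  induction n with
  | zero => simp
  | succ n ih => rw [pow_succ, ← mul_assoc, ih, mul_assoc, H_u, ← mul_assoc, ← pow_add]; rfl

theorem z_u : z * u * z⁻¹ = u⁻¹ := by
  have h1 := hp_u 11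
  rw [← z_eq, u_mod (b := 22) (by norm_num)] at h1
  rw [h1]
  exact eq_inv_of_mul_eq_one_left (by rw [← pow_succ, u_pow])

instance fact23 : Fact (Nat.Prime 23) := ⟨by norm_num⟩
instance fact11 : Fact (Nat.Prime 11) := ⟨by norm_num⟩

theorem orderOf_u : orderOf u = 23 := orderOf_eq_prime u_pow u_ne
theorem orderOf_H : orderOf H = 11 := orderOf_eq_prime H_pow H_ne
theorem orderOf_k : orderOf k = 11 := orderOf_eq_prime k_pow k_ne

theorem card_zu : Nat.card (zpowers u) = 23 := by rw [Nat.card_zpowers, orderOf_u]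

theorem isPGroup_zu : IsPGroup 23 (zpowers u) := Cfsg.Agent.H858.NormC.isPGroup_of_card card_zu

theorem not_dvd_zu : ¬ 23 ∣ (zpowers u).index :=
  Cfsg.Agent.H858.NormC.not_dvd_index card_zu (BigCent.sq_not_dvd (by simp))

/-- the elements commuting with `u` -/
theorem cent_u {c : 𝒢} (hc : c * u = u * c) : ∃ n : ℕ, c = u ^ n := by
  classical
  have h1 := PrimeSub.centralizer_eq (by norm_num) card_zu (BigNum.data23 card_zu).1
  have h2 : c ∈ centralizer (zpowers u : Set 𝒢) := by
    rw [mem_centralizer_iff]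
    intro y hy
    obtain ⟨n, rfl⟩ := hy
    exact ((Commute.zpow_right (show Commute c u from hc) n).eq).symm
  rw [h1, mem_zpowers_iff_mem_range_orderOf, Finset.mem_image] at h2
  obtain ⟨n, -, hn⟩ := h2
  exact ⟨n, hn.symm⟩

/-- an element of odd order 11 with square one -/
theorem eq_one_of {a : 𝒢} (h2 : a * a = 1) (h11 : a ^ 11 = 1) : a = 1 := by
  have : a ^ 11 = (a * a) ^ 5 * a := by rw [← pow_two, ← pow_mul, ← pow_succ]
  rw [h2, one_pow, one_mul] at this
  rw [← this, h11]

/-- powers of `k` commuting with `z` -/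
theorem kpow_eq_one {a : 𝒢} (ha : a ∈ zpowers k) (hz : z * a * z⁻¹ = a) : a = 1 := by
  obtain ⟨n, rfl⟩ := ha
  simp only at hz ⊢
  have h1 : z * k ^ n * z⁻¹ = (k ^ n)⁻¹ := by rw [← conj_zpow, z_k', inv_zpow]
  apply eq_one_of
  · rw [← eq_inv_iff_mul_eq_one, ← h1, hz]
  · rw [← zpow_natCast, ← zpow_mul, mul_comm, zpow_mul, zpow_natCast, k_pow, one_zpow]

theorem disj {a : 𝒢} (ha : a ∈ zpowers k) (hb : a ∈ zpowers H) : a = 1 := by
  apply kpow_eq_one ha
  obtain ⟨n, rfl⟩ := hb
  have h1 : z * H ^ n = H ^ n * z := (Commute.zpow_right (show Commute z H from z_H) n).eq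
  simp only
  rw [h1, mul_inv_cancel_right]

/-- the map to the centralizer of `H` -/
theorem map_inj {i j e i' j' e' : ℕ} (hi : i < 11) (hj : j < 11) (he : e < 2) (hi' : i' < 11) (hj' : j' < 11)
    (he' : e' < 2) (heq : H ^ i * (k ^ j * z ^ e) = H ^ i' * (k ^ j' * z ^ e')) : i = i' ∧ j = j' ∧ e = e' := by
  have hkH : Commute k H := k_H
  have hk1 : ∀ i j : ℕ, Commute k (H ^ i * k ^ j) := fun i j =>
    (hkH.pow_right i).mul_right ((Commute.refl k).pow_right j)
  have hz : ¬ Commute k z := by
    intro hkz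
    apply k_ne
    apply kpow_eq_one (mem_zpowers k)
    rw [hkz.eq.symm, mul_inv_cancel_right]
  have hee : e = e' := by
    by_contra hne
    apply hz
    rcases (show (e = 0 ∧ e' = 1) ∨ (e = 1 ∧ e' = 0) by omega) with ⟨rfl, rfl⟩ | ⟨rfl, rfl⟩
    · rw [pow_zero, pow_one, mul_one, ← mul_assoc] at heq
      have h1 : z = (H ^ i' * k ^ j')⁻¹ * (H ^ i * k ^ j) := by rw [heq]; group
      rw [h1]
      exact (hk1 _ _).inv_right.mul_right (hk1 _ _)
    · rw [pow_zero, pow_one, mul_one, ← mul_assoc] at heq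
      have h1 : z = (H ^ i * k ^ j)⁻¹ * (H ^ i' * k ^ j') := by rw [← heq]; group
      rw [h1]
      exact (hk1 _ _).inv_right.mul_right (hk1 _ _)
  subst hee
  have h1 : H ^ i * k ^ j = H ^ i' * k ^ j' := by
    rw [← mul_assoc, ← mul_assoc] at heq
    exact mul_right_cancel heq
  have h2 : (H ^ i')⁻¹ * H ^ i = k ^ j' * (k ^ j)⁻¹ := by
    rw [eq_mul_inv_iff_mul_eq, mul_assoc, h1]; group
  have h3 : k ^ j' * (k ^ j)⁻¹ = 1 := by
    apply disj
    · exact mul_mem (pow_mem (mem_zpowers k) _) (inv_mem (pow_mem (mem_zpowers k) _))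
    · rw [← h2]
      exact mul_mem (inv_mem (pow_mem (mem_zpowers H) _)) (pow_mem (mem_zpowers H) _)
  rw [h3] at h2
  rw [inv_mul_eq_one] at h2
  rw [mul_inv_eq_one] at h3
  refine ⟨?_, ?_, rfl⟩
  · exact (pow_injOn_Iio_orderOf (x := H) (by rw [orderOf_H]; exact hi') (by rw [orderOf_H]; exact hi) h2).symm
  · exact (pow_injOn_Iio_orderOf (x := k) (by rw [orderOf_k]; exact hj') (by rw [orderOf_k]; exact hj) h3).symm

/-- the order of the centralizer of `H` -/
theorem card_cent_H : Nat.card (centralizer ({H} : Set 𝒢)) ≤ 242 := by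
  obtain ⟨m, hm⟩ := H_mem
  have hmo : orderOf m = 11 := by
    rw [← orderOf_injective phi Cfsg.Agent.H858.VK.phi_injective, hm, orderOf_H]
  have hi : ¬ 11 ∣ M24Eleven.F.index := M24Eleven.not_dvd_F
  obtain ⟨g, hg⟩ := SylEleven.exists_conj_mem M24Eleven.isPGroup_F hi (g := m)
    ⟨1, by rw [pow_one, ← hmo, pow_orderOf_eq_one]⟩
  have hgo : orderOf (g * m * g⁻¹) = 11 := by
    rw [← hmo]
    exact orderOf_injective (MulAut.conj g).toMonoidHom (MulAut.conj g).injective m
  have h1 : zpowers (g * m * g⁻¹) = M24Eleven.F := by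
    apply Subgroup.eq_of_le_of_card_ge
    · rw [zpowers_le]; exact hg
    · rw [M24Eleven.card_F, Nat.card_zpowers, hgo]
  have h2 : M24Eleven.f ∈ zpowers (g * m * g⁻¹) := by
    rw [h1]; exact mem_zpowers _
  have h3 : IsConj H (phi (g * m * g⁻¹)) := by
    rw [isConj_iff]
    exact ⟨phi g, by rw [← hm, map_mul, map_mul, map_inv]⟩
  rw [ClassEleven.card_centralizer_conj h3]
  refine le_trans ?_ CentEleven.card_centralizer_le
  apply Nat.card_le_card_of_injective _ (Subgroup.inclusion_injective (?_ : centralizer ({phi (g * m * g⁻¹)} : Set 𝒢) ≤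
    centralizer {phi M24Eleven.f}))
  intro c hc
  rw [mem_centralizer_singleton_iff] at hc ⊢
  obtain ⟨n, hn⟩ := h2
  simp only at hn
  rw [← hn, map_zpow]
  exact (Commute.zpow_right (show Commute c _ from hc) n).eq

/-- **the elements commuting with `H`** -/
theorem cent_H {c : 𝒢} (hc : c * H = H * c) : ∃ i j e : ℕ, i < 11 ∧ j < 11 ∧ e < 2 ∧ c = H ^ i * (k ^ j * z ^ e) := by
  have hmem : ∀ i j e : ℕ, H ^ i * (k ^ j * z ^ e) ∈ centralizer ({H} : Set 𝒢) := by
    intro i j e
    rw [mem_centralizer_singleton_iff]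
    have h1 : Commute (H ^ i * (k ^ j * z ^ e)) H :=
      ((Commute.refl H).pow_left i).mul_left (((show Commute k H from k_H).pow_left j).mul_left
        ((show Commute z H from z_H).pow_left e))
    exact h1.eq
  let f : Fin 11 × Fin 11 × Fin 2 → centralizer ({H} : Set 𝒢) := fun p => ⟨H ^ (p.1 : ℕ) * (k ^ (p.2.1 : ℕ) * z ^ (p.2.2 : ℕ)), hmem _ _ _⟩
  have hf : Function.Injective f := by
    rintro ⟨i, j, e⟩ ⟨i', j', e'⟩ hh
    have h1 := congrArg Subtype.val hh
    simp only [f] at h1
    obtain ⟨h2, h3, h4⟩ := map_inj i.2 j.2 e.2 i'.2 j'.2 e'.2 h1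
    rw [Prod.mk.injEq, Prod.mk.injEq]
    exact ⟨Fin.ext h2, Fin.ext h3, Fin.ext h4⟩
  have hb : Function.Bijective f := hf.bijective_of_nat_card_le (by
    refine card_cent_H.trans ?_
    simp)
  obtain ⟨⟨i, j, e⟩, hp⟩ := hb.2 ⟨c, mem_centralizer_singleton_iff.2 hc⟩
  exact ⟨i, j, e, i.2, j.2, e.2, (congrArg Subtype.val hp).symm⟩

end Cfsg.Agent.H265.JM.L223
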